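import Mathlib
import Cfsg.Agent.Lib.Helper18.LSDefs
import Cfsg.Agent.Lib.Helper18.WRDefs

/-! Piece WR-DETMUL for S2347: multiplicativity of the determinant of `A * π + π'`
on operators commuting with the idempotent `π`. -/

set_option autoImplicit false

namespace Cfsg.Agent.Lib.Helper18.WR

open Matrix

universe u

variable {F : Type u} [Field F] {n : ℕ}

theorem det_mul_proj {E : Type*} [AddCommGroup E] [Module ℂ E] [FiniteDimensional ℂ E]
    (π π' : Module.End ℂ E) (hπ : π * π = π) (h1 : π + π' = 1) (A B : Module.End ℂ E)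
    (hB : B * π = π * B) :
    LinearMap.det ((A * B) * π + π') = LinearMap.det (A * π + π') * LinearMap.det (B * π + π') := by
  have hπ' : π' = 1 - π := by rw [← h1]; abel
  subst hπ'
  have h3 : π * (B * π) = B * π := by rw [← mul_assoc, ← hB, mul_assoc, hπ]
  have key : (A * B) * π + (1 - π) = (A * π + (1 - π)) * (B * π + (1 - π)) := by
    simp only [mul_add, add_mul, mul_sub, sub_mul, mul_one, one_mul, mul_assoc, h3, hπ]
    abel
  rw [key, map_mul]

end Cfsg.Agent.Lib.Helper18.WR
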