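import Mathlib
import Cfsg.Agent.S0144

/-!
# S2553, piece L: nonsolvable groups of order 60 and 168 are simple
-/

set_option autoImplicit false

namespace Cfsg.Agent.Lib.Helper66.G4

universe u

/-- an extension of a solvable group by a solvable group is solvable -/
theorem solvable_of_normal {G : Type u} [Group G] (N : Subgroup G) [N.Normal]
    (hN : Group.IsSolvable N) (hQ : Group.IsSolvable (G ⧸ N)) : Group.IsSolvable G := by
  have := hN
  have := hQ
  refine Group.isSolvable_of_ker_le_range N.subtype (QuotientGroup.mk' N) ?_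
  rw [QuotientGroup.ker_mk', Subgroup.range_subtype]

/-- groups of order `p ^ a * q ^ b` for the small orders that occur -/
theorem solvable_small {H : Type u} [Group H] [Finite H] {n : ℕ} (hn : Nat.card H = n)
    (hmem : n ∈ [2, 3, 4, 5, 6, 7, 8, 10, 12, 14, 15, 20, 21, 24, 28, 56]) :
    Group.IsSolvable H := by
  simp only [List.mem_cons, List.not_mem_nil, or_false] at hmem
  rcases hmem with rfl | rfl | rfl | rfl | rfl | rfl | rfl | rfl | rfl | rfl | rfl | rfl | rfl |
    rfl | rfl | rfl
  · exact Cfsg.Agent.S0144.result 2 3 1 0 (by norm_num) (by norm_num) (hn.trans (by norm_num))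
  · exact Cfsg.Agent.S0144.result 3 2 1 0 (by norm_num) (by norm_num) (hn.trans (by norm_num))
  · exact Cfsg.Agent.S0144.result 2 3 2 0 (by norm_num) (by norm_num) (hn.trans (by norm_num))
  · exact Cfsg.Agent.S0144.result 5 2 1 0 (by norm_num) (by norm_num) (hn.trans (by norm_num))
  · exact Cfsg.Agent.S0144.result 2 3 1 1 (by norm_num) (by norm_num) (hn.trans (by norm_num))
  · exact Cfsg.Agent.S0144.result 7 2 1 0 (by norm_num) (by norm_num) (hn.trans (by norm_num))
  · exact Cfsg.Agent.S0144.result 2 3 3 0 (by norm_num) (by norm_num) (hn.trans (by norm_num))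
  · exact Cfsg.Agent.S0144.result 2 5 1 1 (by norm_num) (by norm_num) (hn.trans (by norm_num))
  · exact Cfsg.Agent.S0144.result 2 3 2 1 (by norm_num) (by norm_num) (hn.trans (by norm_num))
  · exact Cfsg.Agent.S0144.result 2 7 1 1 (by norm_num) (by norm_num) (hn.trans (by norm_num))
  · exact Cfsg.Agent.S0144.result 3 5 1 1 (by norm_num) (by norm_num) (hn.trans (by norm_num))
  · exact Cfsg.Agent.S0144.result 2 5 2 1 (by norm_num) (by norm_num) (hn.trans (by norm_num))
  · exact Cfsg.Agent.S0144.result 3 7 1 1 (by norm_num) (by norm_num) (hn.trans (by norm_num))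
  · exact Cfsg.Agent.S0144.result 2 3 3 1 (by norm_num) (by norm_num) (hn.trans (by norm_num))
  · exact Cfsg.Agent.S0144.result 2 7 2 1 (by norm_num) (by norm_num) (hn.trans (by norm_num))
  · exact Cfsg.Agent.S0144.result 2 7 3 1 (by norm_num) (by norm_num) (hn.trans (by norm_num))

/-- the order of a Sylow `p`-subgroup when `p` divides the order exactly once -/
theorem card_sylow_of_card {G : Type u} [Group G] [Finite G] {p m : ℕ} [hp : Fact p.Prime]
    (hm : ¬ p ∣ m) (h : Nat.card G = p * m) (P : Sylow p G) : Nat.card P = p := by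
  have hm0 : m ≠ 0 := by
    rintro rfl
    exact hm (dvd_zero p)
  rw [Sylow.card_eq_multiplicity, h, Nat.factorization_mul hp.out.ne_zero hm0,
    Finsupp.add_apply, hp.out.factorization_self, Nat.factorization_eq_zero_of_not_dvd hm,
    pow_one]

/-- a group of order twice an odd number has a normal subgroup of index two -/
theorem exists_normal_of_two_mul_odd {G : Type u} [Group G] [Finite G] {m : ℕ}
    (hm : ¬ 2 ∣ m) (h : Nat.card G = 2 * m) :
    ∃ K : Subgroup G, K.Normal ∧ Nat.card K = m ∧ Nat.card (G ⧸ K) = 2 := by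
  haveI : Fact (Nat.Prime 2) := ⟨Nat.prime_two⟩
  obtain ⟨P⟩ : Nonempty (Sylow 2 G) := inferInstance
  have hP2 : Nat.card P = 2 := card_sylow_of_card hm h P
  have hP : Subgroup.normalizer ((P : Subgroup G) : Set G) ≤
      Subgroup.centralizer ((P : Subgroup G) : Set G) := by
    intro g hg
    rw [Subgroup.mem_centralizer_iff]
    intro x hx
    by_cases hx1 : x = 1
    · rw [hx1, one_mul, mul_one]
    · have hgx : g * x * g⁻¹ ∈ (P : Subgroup G) := (Subgroup.mem_normalizer_iff.mp hg x).mp hx
      have hgx1 : g * x * g⁻¹ ≠ 1 := by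
        intro h1
        apply hx1
        have : x = g⁻¹ * (g * x * g⁻¹) * g := by group
        rw [this, h1, mul_one, inv_mul_cancel]
      obtain ⟨y, -, hy⟩ := (Nat.card_eq_two_iff' (1 : P)).mp hP2
      have e1 : (⟨x, hx⟩ : P) = y := hy _ (fun h1 => hx1 (congrArg Subtype.val h1))
      have e2 : (⟨g * x * g⁻¹, hgx⟩ : P) = y := hy _ (fun h1 => hgx1 (congrArg Subtype.val h1))
      have e3 : g * x * g⁻¹ = x := congrArg Subtype.val (e2.trans e1.symm)
      rw [mul_inv_eq_iff_eq_mul] at e3
      exact e3.symm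
  have hc := MonoidHom.ker_transferSylow_isComplement' P hP
  have hcard := hc.card_mul_card
  have hK : Nat.card (MonoidHom.transferSylow P hP).ker = m := by
    rw [hP2, h, mul_comm] at hcard
    exact Nat.eq_of_mul_eq_mul_left (by norm_num) hcard
  refine ⟨(MonoidHom.transferSylow P hP).ker, inferInstance, hK, ?_⟩
  rw [← Subgroup.index_eq_card, hc.symm.index_eq_card, hP2]

theorem solvable_30 {H : Type u} [Group H] [Finite H] (hn : Nat.card H = 30) :
    Group.IsSolvable H := by
  obtain ⟨K, hKn, hK, hQ⟩ := exists_normal_of_two_mul_odd (m := 15) (by norm_num) hn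
  haveI := hKn
  exact solvable_of_normal K (solvable_small hK (by decide)) (solvable_small hQ (by decide))

theorem solvable_42 {H : Type u} [Group H] [Finite H] (hn : Nat.card H = 42) :
    Group.IsSolvable H := by
  obtain ⟨K, hKn, hK, hQ⟩ := exists_normal_of_two_mul_odd (m := 21) (by norm_num) hn
  haveI := hKn
  exact solvable_of_normal K (solvable_small hK (by decide)) (solvable_small hQ (by decide))

theorem solvable_84 {H : Type u} [Group H] [Finite H] (hn : Nat.card H = 84) :
    Group.IsSolvable H := by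
  haveI : Fact (Nat.Prime 7) := ⟨by norm_num⟩
  obtain ⟨P⟩ : Nonempty (Sylow 7 H) := inferInstance
  have hP7 : Nat.card P = 7 := card_sylow_of_card (m := 12) (by norm_num) hn P
  have hidx : (P : Subgroup H).index = 12 := by
    have := Subgroup.card_mul_index (P : Subgroup H)
    rw [hP7, hn] at this
    omega
  have h1 : Nat.card (Sylow 7 H) ≡ 1 [MOD 7] := card_sylow_modEq_one 7 H
  have h2 : Nat.card (Sylow 7 H) ∣ 12 := hidx ▸ P.card_dvd_index
  have h3 : Nat.card (Sylow 7 H) = 1 := by
    have hle : Nat.card (Sylow 7 H) ≤ 12 := Nat.le_of_dvd (by norm_num) h2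
    unfold Nat.ModEq at h1
    interval_cases Nat.card (Sylow 7 H) <;> omega
  haveI : Subsingleton (Sylow 7 H) := (Nat.card_eq_one_iff_unique.mp h3).1
  haveI : (P : Subgroup H).Normal := Sylow.normal_of_subsingleton P
  refine solvable_of_normal (P : Subgroup H) (solvable_small hP7 (by decide))
    (solvable_small (n := 12) ?_ (by decide))
  rw [← Subgroup.index_eq_card, hidx]

theorem solvable_of_mem {H : Type u} [Group H] [Finite H] {n : ℕ} (hn : Nat.card H = n)
    (hmem : n ∈ [2, 3, 4, 5, 6, 7, 8, 10, 12, 14, 15, 20, 21, 24, 28, 30, 42, 56, 84]) :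
    Group.IsSolvable H := by
  by_cases h30 : n = 30
  · exact solvable_30 (hn.trans h30)
  by_cases h42 : n = 42
  · exact solvable_42 (hn.trans h42)
  by_cases h84 : n = 84
  · exact solvable_84 (hn.trans h84)
  apply solvable_small hn
  simp only [List.mem_cons, List.not_mem_nil, or_false] at hmem ⊢
  omega

theorem mem_of_mul_eq_60 {a b : ℕ} (h : a * b = 60) (ha : a ≠ 1) (hb : b ≠ 1) :
    a ∈ [2, 3, 4, 5, 6, 7, 8, 10, 12, 14, 15, 20, 21, 24, 28, 30, 42, 56, 84] := by
  have hle : a ≤ 60 := Nat.le_of_dvd (by norm_num) ⟨b, h.symm⟩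
  interval_cases a <;> first | omega | decide

theorem mem_of_mul_eq_168 {a b : ℕ} (h : a * b = 168) (ha : a ≠ 1) (hb : b ≠ 1) :
    a ∈ [2, 3, 4, 5, 6, 7, 8, 10, 12, 14, 15, 20, 21, 24, 28, 30, 42, 56, 84] := by
  have hle : a ≤ 168 := Nat.le_of_dvd (by norm_num) ⟨b, h.symm⟩
  interval_cases a <;> first | omega | decide

theorem simple_of_mem {G : Type u} [Group G] [Finite G] (hns : ¬ Group.IsSolvable G)
    (hnt : 1 < Nat.card G)
    (hmem : ∀ a b : ℕ, a * b = Nat.card G → a ≠ 1 → b ≠ 1 →
      a ∈ [2, 3, 4, 5, 6, 7, 8, 10, 12, 14, 15, 20, 21, 24, 28, 30, 42, 56, 84]) :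
    IsSimpleGroup G := by
  haveI : Nontrivial G := Finite.one_lt_card_iff_nontrivial.mp hnt
  refine ⟨fun N hN => ?_⟩
  by_contra hcon
  push Not at hcon
  haveI := hN
  apply hns
  have hmul := Subgroup.card_mul_index N
  have ha : Nat.card N ≠ 1 := fun h1 => hcon.1 (Subgroup.card_eq_one.mp h1)
  have hb : N.index ≠ 1 := fun h1 => hcon.2 (Subgroup.index_eq_one.mp h1)
  refine solvable_of_normal N (solvable_of_mem rfl (hmem _ _ hmul ha hb))
    (solvable_of_mem (Subgroup.index_eq_card N).symm (hmem _ _ ?_ hb ha))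
  rw [mul_comm]; exact hmul

theorem simple_of_card_60 {G : Type*} [Group G] [Finite G] (h : Nat.card G = 60)
    (hns : ¬ Group.IsSolvable G) : IsSimpleGroup G :=
  simple_of_mem hns (by rw [h]; norm_num)
    (fun _ _ hab ha hb => mem_of_mul_eq_60 (hab.trans h) ha hb)

theorem simple_of_card_168 {G : Type*} [Group G] [Finite G] (h : Nat.card G = 168)
    (hns : ¬ Group.IsSolvable G) : IsSimpleGroup G :=
  simple_of_mem hns (by rw [h]; norm_num)
    (fun _ _ hab ha hb => mem_of_mul_eq_168 (hab.trans h) ha hb)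

end Cfsg.Agent.Lib.Helper66.G4
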