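import Mathlib
import Cfsg.Agent.Lib.Helper48.QADefs

/-!
# Project QA (helper48, S2787): piece QA-PCONJ

A non-trivial element `u` of `SL₂(F)` with `(u - 1)² = 0` is conjugate to an upper unitriangular
matrix `ux t` with `t ≠ 0`.
-/

set_option autoImplicit false
set_option linter.unusedSimpArgs false

universe u

namespace Cfsg.Agent.Lib.Helper48.QA

open Matrix Polynomial

local notation "SL2" F => Matrix.SpecialLinearGroup (Fin 2) F
local notation "PSL2" F => Matrix.ProjectiveSpecialLinearGroup (Fin 2) F
local notation "M2" F => Matrix (Fin 2) (Fin 2) F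

/-- the conjugating matrix in the case of a non-zero lower left entry -/
private def pconj_conjugator {F : Type*} [Field F] (a c : F) (hc : c ≠ 0) : SL2 F :=
  ⟨!![0, -c⁻¹; c, 1 - a], by
    rw [Matrix.det_fin_two_of]
    field_simp
    ring⟩

private theorem pconj_conjugator_coe {F : Type*} [Field F] (a c : F) (hc : c ≠ 0) :
    ((pconj_conjugator a c hc : SL2 F) : M2 F) = !![0, -c⁻¹; c, 1 - a] := rfl

private theorem pconj_ux_coe {F : Type*} [Field F] (t : F) :
    ((ux t : SL2 F) : M2 F) = !![1, t; 0, 1] := rfl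

/-- QA-PCONJ -/
theorem unip_conj {F : Type*} [Field F] (u : SL2 F) (hu1 : u ≠ 1)
    (hu : ((u : M2 F) - 1) * ((u : M2 F) - 1) = 0) :
    ∃ (h : SL2 F) (t : F), t ≠ 0 ∧ h * u * h⁻¹ = ux t := by
  have hdet : (u : M2 F) 0 0 * (u : M2 F) 1 1 - (u : M2 F) 0 1 * (u : M2 F) 1 0 = 1 := by
    have h := u.det_coe
    rwa [Matrix.det_fin_two] at h
  have h00 := congrFun (congrFun hu 0) 0
  have h01 := congrFun (congrFun hu 0) 1
  have h10 := congrFun (congrFun hu 1) 0
  have h11 := congrFun (congrFun hu 1) 1
  simp only [Matrix.mul_apply, Fin.sum_univ_two, Matrix.sub_apply, Matrix.one_apply_eq,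
    Matrix.one_apply_ne, ne_eq, zero_ne_one, one_ne_zero, not_false_eq_true, sub_zero,
    Matrix.zero_apply, Fin.isValue] at h00 h01 h10 h11
  have huext : ∀ v : SL2 F, (∀ i j, (u : M2 F) i j = (v : M2 F) i j) → u = v := by
    intro v hv
    apply Subtype.ext
    ext i j
    exact hv i j
  obtain ⟨a, ha⟩ : ∃ a, a = (u : M2 F) 0 0 := ⟨_, rfl⟩
  obtain ⟨b, hb⟩ : ∃ b, b = (u : M2 F) 0 1 := ⟨_, rfl⟩
  obtain ⟨c, hc⟩ : ∃ c, c = (u : M2 F) 1 0 := ⟨_, rfl⟩
  obtain ⟨d, hd⟩ : ∃ d, d = (u : M2 F) 1 1 := ⟨_, rfl⟩
  simp only [← ha, ← hb, ← hc, ← hd] at hdet h00 h01 h10 h11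
  by_cases hc0 : c = 0
  · -- upper triangular: then `a = d = 1`
    subst hc0
    have ha1 : a = 1 := by
      have h : (a - 1) * (a - 1) = 0 := by linear_combination h00
      have h' : a - 1 = 0 := by simpa using h
      linear_combination h'
    have hd1 : d = 1 := by
      have h : (d - 1) * (d - 1) = 0 := by linear_combination h11
      have h' : d - 1 = 0 := by simpa using h
      linear_combination h'
    refine ⟨1, b, ?_, ?_⟩
    · intro hb0
      apply hu1
      apply huext
      intro i j
      fin_cases i <;> fin_cases j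
      · simpa [← ha] using ha1
      · simpa [← hb] using hb0
      · simpa using hc.symm
      · simpa [← hd] using hd1
    · rw [one_mul, inv_one, mul_one]
      apply huext
      intro i j
      fin_cases i <;> fin_cases j
      · simpa [ux, ← ha] using ha1
      · simp [ux, ← hb]
      · simpa [ux] using hc.symm
      · simpa [ux, ← hd] using hd1
  · -- `c ≠ 0`: then `a + d = 2`
    have had : a + d = 2 := by
      have h : c * (a + d - 2) = 0 := by linear_combination h10
      rcases mul_eq_zero.mp h with h | h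
      · exact absurd h hc0
      · linear_combination h
    refine ⟨pconj_conjugator a c hc0, -c⁻¹, ?_, ?_⟩
    · simpa using hc0
    · rw [mul_inv_eq_iff_eq_mul]
      apply Subtype.ext
      change (pconj_conjugator a c hc0 : M2 F) * (u : M2 F) =
        (ux (-c⁻¹) : M2 F) * (pconj_conjugator a c hc0 : M2 F)
      rw [pconj_conjugator_coe, pconj_ux_coe]
      ext i j
      fin_cases i <;> fin_cases j
      · simp only [Matrix.mul_apply, Fin.sum_univ_two, ← ha, ← hb, ← hc, ← hd, Fin.zero_eta,
          Fin.mk_one, Matrix.of_apply, Matrix.cons_val_zero, Matrix.cons_val_one,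
          Matrix.cons_val', Matrix.cons_val_fin_one, Fin.isValue]
        field_simp
        ring
      · simp only [Matrix.mul_apply, Fin.sum_univ_two, ← ha, ← hb, ← hc, ← hd, Fin.zero_eta,
          Fin.mk_one, Matrix.of_apply, Matrix.cons_val_zero, Matrix.cons_val_one,
          Matrix.cons_val', Matrix.cons_val_fin_one, Fin.isValue]
        field_simp
        linear_combination -had
      · simp only [Matrix.mul_apply, Fin.sum_univ_two, ← ha, ← hb, ← hc, ← hd, Fin.zero_eta,
          Fin.mk_one, Matrix.of_apply, Matrix.cons_val_zero, Matrix.cons_val_one,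
          Matrix.cons_val', Matrix.cons_val_fin_one, Fin.isValue]
        ring
      · simp only [Matrix.mul_apply, Fin.sum_univ_two, ← ha, ← hb, ← hc, ← hd, Fin.zero_eta,
          Fin.mk_one, Matrix.of_apply, Matrix.cons_val_zero, Matrix.cons_val_one,
          Matrix.cons_val', Matrix.cons_val_fin_one, Fin.isValue]
        linear_combination had - hdet

end Cfsg.Agent.Lib.Helper48.QA
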