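import Mathlib
import Cfsg.Agent.Lib.Helper5.BQ0
import Cfsg.Agent.Lib.Helper90.BRX1

/-!
# S0996 piece BQ-X1: `triv_mem_gen`

Without loss of generality the trivial character is one of the non-exceptional characters of the
principal block (with sign `1`): for `t = (p - 1) / e ≥ 2` this is helper90's `triv_mem`; for
`t = 1` the single exceptional character may be swapped with a non-exceptional one of sign `-1`.
-/

set_option autoImplicit false

namespace Cfsg.Agent.Lib.Helper5.BQ

open Cfsg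
open Cfsg.Agent.Lib.Helper83 (trivIrr)
open Cfsg.Agent.Lib.Helper10.BR (psum DOut)
open scoped ComplexConjugate

/-- BQ-X1 -/
theorem triv_mem_gen {G : Type*} [Group G] [Fintype G] [IsSimpleGroup G] (hG : ¬ IsCyclic G)
    (p : ℕ) [Fact p.Prime] (hp5 : 5 ≤ p) (M : Ideal AlgInt) (hM : IsPModular p M)
    (P : Subgroup G) (hP : Nat.card P = p) (e : ℕ) (he : e ∣ p - 1)
    (X Y : Set (IrrCharacter G)) (εX : IrrCharacter G → ℤ) (ε : ℤ)
    (hD : DOut G p M P e X Y εX ε) :
    ∃ (X' Y' : Set (IrrCharacter G)) (εX' : IrrCharacter G → ℤ) (ε' : ℤ),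
      DOut G p M P e X' Y' εX' ε' ∧ trivIrr G ∈ X' ∧ εX' (trivIrr G) = 1 := by
  classical
  have hp : p.Prime := Fact.out
  by_cases ht : 2 ≤ (p - 1) / e
  · exact ⟨X, Y, εX, ε, hD, Cfsg.Agent.Lib.Helper10.BR.triv_mem hG p M hM P hP e X Y εX ε hD ht⟩
  have he0 : e ≠ 0 := by
    rintro rfl
    rw [zero_dvd_iff] at he
    omega
  have hcardY : (p - 1) / e = 1 := by
    have h1 : 1 ≤ (p - 1) / e :=
      Nat.div_pos (Nat.le_of_dvd (by omega) he) (Nat.pos_of_ne_zero he0)
    omega
  have hep : e = p - 1 := by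
    obtain ⟨k, hk⟩ := he
    rw [hk, Nat.mul_div_cancel_left k (Nat.pos_of_ne_zero he0)] at hcardY
    rw [hk, hcardY, mul_one]
  have hecast : (e : ℤ) = (p : ℤ) - 1 := by
    rw [hep, Nat.cast_sub (by omega : 1 ≤ p), Nat.cast_one]
  have hp2 : ¬ (p : ℤ) ∣ 2 := by
    intro h
    have := Int.le_of_dvd (by norm_num) h
    omega
  have h1 : trivIrr G ∈ X ∪ Y := by
    rw [← hD.block]
    exact Cfsg.Agent.Lib.Helper79.trivIrr_mem_principalBlock hM
  have hreg : ¬ p ∣ orderOf (1 : G) := by
    rw [orderOf_one]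
    exact fun h => hp.one_lt.ne' (Nat.dvd_one.mp h)
  have hdeg1 : charDegree (trivIrr G : G → ℂ) = 1 := by
    have h2 := (Cfsg.Agent.Lib.Helper83.irr_degree (trivIrr G).2).2
    rw [Cfsg.Agent.Lib.Helper83.trivIrr_apply] at h2
    exact_mod_cast h2.symm
  rcases h1 with hX | hY
  · refine ⟨X, Y, εX, ε, hD, hX, ?_⟩
    have h2 := hD.degX (trivIrr G) hX
    rw [hdeg1] at h2
    rcases hD.signX (trivIrr G) hX with h3 | h3
    · exact h3
    · exfalso
      rw [h3] at h2
      have h4 : (p : ℤ) ∣ (-1 : ℤ) - ((1 : ℕ) : ℤ) := Int.ModEq.dvd h2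
      apply hp2
      have h5 : (2 : ℤ) = -((-1 : ℤ) - ((1 : ℕ) : ℤ)) := by norm_num
      rw [h5]
      exact dvd_neg.mpr h4
  · -- the trivial character is the exceptional one
    have hXfin : X.Finite := Set.toFinite X
    have htX : trivIrr G ∉ X := fun h => Set.disjoint_left.mp hD.disj h hY
    have hYone : ∀ θ ∈ Y, θ = trivIrr G := by
      intro θ hθ
      have hc : Nat.card Y = 1 := by rw [hD.cardY, hcardY]
      have hss : Subsingleton Y := (Nat.card_eq_one_iff_unique.mp hc).1
      have h2 := Subsingleton.elim (⟨θ, hθ⟩ : Y) ⟨trivIrr G, hY⟩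
      exact congrArg Subtype.val h2
    have hε : ε = -1 := by
      rcases hD.signY with h | h
      · exfalso
        have h2 := hD.degY (trivIrr G) hY
        rw [hdeg1, h, hecast] at h2
        have h3 : (p : ℤ) ∣ 1 * ((p : ℤ) - 1) - ((1 : ℕ) : ℤ) := Int.ModEq.dvd h2
        apply hp2
        have h5 : (2 : ℤ) = (p : ℤ) - (1 * ((p : ℤ) - 1) - ((1 : ℕ) : ℤ)) := by
          push_cast
          ring
        rw [h5]
        exact dvd_sub (dvd_refl _) h3
      · exact h
    -- a non-exceptional character of sign `-1`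
    have ht1 := hD.t1 (trivIrr G) hY 1 hreg
    rw [finsum_mem_eq_finite_toFinset_sum _ hXfin, hε,
      Cfsg.Agent.Lib.Helper83.trivIrr_apply] at ht1
    obtain ⟨χB, hχBX, hχB⟩ : ∃ χB ∈ X, εX χB = -1 := by
      by_contra hno
      push Not at hno
      have hall : ∀ χ ∈ hXfin.toFinset, ((εX χ : ℤ) : ℂ) * (χ : G → ℂ) 1 =
          ((charDegree (χ : G → ℂ) : ℕ) : ℂ) := by
        intro χ hχ
        have hχX := (Set.Finite.mem_toFinset hXfin).mp hχ
        rcases hD.signX χ hχX with h | h
        · rw [h, Int.cast_one, one_mul]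
          exact (Cfsg.Agent.Lib.Helper83.irr_degree χ.2).2
        · exact absurd h (hno χ hχX)
      rw [Finset.sum_congr rfl hall, ← Nat.cast_sum] at ht1
      have h5 : ((-1 : ℤ) : ℂ) =
          (((∑ χ ∈ hXfin.toFinset, charDegree (χ : G → ℂ) : ℕ) : ℤ) : ℂ) := by
        rw [Int.cast_natCast, ← ht1]
        ring
      have h6 := Int.cast_injective h5
      omega
    have hχBne : χB ≠ trivIrr G := fun h => htX (h ▸ hχBX)
    obtain ⟨S, hS⟩ : ∃ S : Finset (IrrCharacter G), S = hXfin.toFinset.erase χB := ⟨_, rfl⟩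
    have memS : ∀ χ, χ ∈ S ↔ χ ≠ χB ∧ χ ∈ X := by
      intro χ
      rw [hS, Finset.mem_erase, Set.Finite.mem_toFinset]
    have hXeq : hXfin.toFinset = insert χB S := by
      rw [hS]
      exact (Finset.insert_erase ((Set.Finite.mem_toFinset hXfin).mpr hχBX)).symm
    have hBS : χB ∉ S := fun h => ((memS χB).mp h).1 rfl
    have htS : trivIrr G ∉ S := fun h => htX ((memS _).mp h).2
    obtain ⟨εX', hεX'⟩ : ∃ f : IrrCharacter G → ℤ,
        ∀ χ, f χ = if χ = trivIrr G then 1 else εX χ := ⟨_, fun _ => rfl⟩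
    have hεt : εX' (trivIrr G) = 1 := by rw [hεX', if_pos rfl]
    have hεo : ∀ χ ∈ X, εX' χ = εX χ := by
      intro χ hχ
      rw [hεX', if_neg (fun h : χ = trivIrr G => htX (h ▸ hχ))]
    have hX'mem : ∀ χ, χ ∈ insert (trivIrr G) (X \ {χB}) ↔ χ = trivIrr G ∨ (χ ∈ X ∧ χ ≠ χB) := by
      intro χ
      rw [Set.mem_insert_iff, Set.mem_sdiff, Set.mem_singleton_iff]
    refine ⟨insert (trivIrr G) (X \ {χB}), {χB}, εX', 1, ?_, Set.mem_insert _ _, hεt⟩
    refine { block := ?_, disj := ?_, cardX := ?_, cardY := ?_, signX := ?_, degX := ?_,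
             valX := ?_, signY := ?_, degY := ?_, regY := ?_, t1 := ?_ }
    · rw [hD.block]
      ext ψ
      rw [Set.mem_union, Set.mem_union, hX'mem, Set.mem_singleton_iff]
      constructor
      · rintro (h | h)
        · by_cases hψ : ψ = χB
          · exact Or.inr hψ
          · exact Or.inl (Or.inr ⟨h, hψ⟩)
        · exact Or.inl (Or.inl (hYone ψ h))
      · rintro ((h | h) | h)
        · rw [h]
          exact Or.inr hY
        · exact Or.inl h.1
        · rw [h]
          exact Or.inl hχBX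
    · rw [Set.disjoint_left]
      intro ψ hψ hψ'
      rw [Set.mem_singleton_iff] at hψ'
      rcases (hX'mem ψ).mp hψ with h | h
      · exact hχBne (hψ'.symm.trans h)
      · exact h.2 hψ'
    · rw [Nat.card_coe_set_eq, Set.ncard_insert_of_notMem (fun h => htX h.1)
        (hXfin.subset Set.sdiff_subset), Set.ncard_sdiff_singleton_add_one hχBX hXfin,
        ← Nat.card_coe_set_eq, hD.cardX]
    · rw [Nat.card_coe_set_eq, Set.ncard_singleton, hcardY]
    · intro χ hχ
      rcases (hX'mem χ).mp hχ with h | h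
      · left
        rw [h, hεt]
      · rw [hεo χ h.1]
        exact hD.signX χ h.1
    · intro χ hχ
      rcases (hX'mem χ).mp hχ with h | h
      · rw [h, hεt, hdeg1]
        exact Int.ModEq.refl _
      · rw [hεo χ h.1]
        exact hD.degX χ h.1
    · intro χ hχ x hx hx1 y hy hyp
      rcases (hX'mem χ).mp hχ with h | h
      · rw [h, hεt, Cfsg.Agent.Lib.Helper83.trivIrr_apply, Int.cast_one]
      · rw [hεo χ h.1]
        exact hD.valX χ h.1 x hx hx1 y hy hyp
    · exact Or.inl rfl
    · intro θ hθ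
      rw [Set.mem_singleton_iff] at hθ
      rw [hθ]
      have h2 := hD.degX χB hχBX
      rw [hχB] at h2
      refine h2.trans ?_
      rw [Int.modEq_iff_dvd, hecast]
      have h5 : 1 * ((p : ℤ) - 1) - (-1) = (p : ℤ) := by ring
      rw [h5]
    · intro θ hθ θ' hθ' g _
      rw [Set.mem_singleton_iff] at hθ hθ'
      rw [hθ, hθ']
    · intro θ hθ g hg
      rw [Set.mem_singleton_iff] at hθ
      rw [hθ]
      have hX'fin : (insert (trivIrr G) (X \ {χB})).Finite := Set.toFinite _
      have hX'eq : hX'fin.toFinset = insert (trivIrr G) S := by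
        ext χ
        rw [Set.Finite.mem_toFinset, Finset.mem_insert, memS, hX'mem]
        tauto
      rw [finsum_mem_eq_finite_toFinset_sum _ hX'fin, hX'eq, Finset.sum_insert htS]
      have old := hD.t1 (trivIrr G) hY g hg
      rw [finsum_mem_eq_finite_toFinset_sum _ hXfin, hXeq, Finset.sum_insert hBS, hε, hχB,
        Cfsg.Agent.Lib.Helper83.trivIrr_apply] at old
      have e1 : ∑ χ ∈ S, ((εX' χ : ℤ) : ℂ) * (χ : G → ℂ) g =
          ∑ χ ∈ S, ((εX χ : ℤ) : ℂ) * (χ : G → ℂ) g :=
        Finset.sum_congr rfl (fun χ hχ => by rw [hεo χ ((memS χ).mp hχ).2])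
      rw [e1, hεt, Cfsg.Agent.Lib.Helper83.trivIrr_apply]
      push_cast
      push_cast at old
      linear_combination old

end Cfsg.Agent.Lib.Helper5.BQ
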