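import Cfsg.Agent.Lib.Helper3.BG12Pieces

/-!
# B&G Section 12, piece Q20B (helper66, for helper3)

`r`-subgroups of a maximal subgroup `M` are commutative for `r ∉ σ(M)`.
-/

set_option autoImplicit false

open Cfsg Cfsg.Agent.Lib.Helper32 Cfsg.Agent.Lib.Helper32.BG10 Cfsg.Agent.Lib.Helper3.BG12
  Cfsg.Agent.Lib.Helper3.BG12S

namespace Cfsg.Agent.Lib.Helper66.BG12

universe u

variable {G : Type u} [Group G] [Finite G]

theorem pgroup_comm_of_not_sigma (hG : IsMinSimpleOddOrder G) (h17 : H17 G) {M : Subgroup G}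
    (hM : IsCoatom M) {r : ℕ} [Fact r.Prime] (hr : r ∉ sigma M) {R : Subgroup G}
    (hR : IsPGroup r R) (hRM : R ≤ M) : IsMulCommutative ↥R := by
  have hrp : r.Prime := Fact.out
  by_cases hR1 : R = ⊥
  · refine ⟨⟨?_⟩⟩
    rintro ⟨a, ha⟩ ⟨b, hb⟩
    apply Subtype.ext
    show a * b = b * a
    rw [hR1, Subgroup.mem_bot] at ha hb
    rw [ha, hb]
  have hr2 : r ≠ 2 := by
    rintro rfl
    have hodd : Odd (Nat.card R) := minSimple_odd_sub hG R
    obtain ⟨k, hk⟩ := IsPGroup.iff_card.mp hR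
    have hk0 : k ≠ 0 := by
      rintro rfl
      rw [pow_zero] at hk
      exact hR1 (Subgroup.card_eq_one.mp hk)
    rw [hk] at hodd
    exact (Nat.not_even_iff_odd.mpr hodd) (Nat.even_pow.mpr ⟨even_two, hk0⟩)
  have hle2 : PRankLE r 2 ↥M := by
    by_contra h
    exact hr (alpha_sub_sigma hG (ut_of hG) hM ⟨hrp, h⟩)
  by_cases h1 : PRankLE r 1 ↥M
  · -- `R` is cyclic
    have hcyc : IsCyclic R := by
      by_contra hnc
      have h2 := not_rankLE_one_of_not_cyclic hr2 hR hnc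
      obtain ⟨q, E, hq, hER, hEc, hEp, hEcard⟩ := exists_elemAb_of_not_rankLE R 1 h2
      have hEr : IsPGroup r E := hR.to_le hER
      obtain ⟨k, hk⟩ := IsPGroup.iff_card.mp hEr
      have hqr : q = r := by
        have h3 : q ∣ r ^ k := by
          rw [← hk, hEcard]
          exact dvd_pow_self q (by norm_num)
        exact (Nat.prime_dvd_prime_iff_eq hq hrp).mp (hq.dvd_of_dvd_pow h3)
      subst hqr
      refine not_prankLE_of_le (hER.trans hRM) hEc hEp ?_ h1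
      rw [hEcard]
      exact Nat.pow_lt_pow_right hq.one_lt (by norm_num)
    obtain ⟨g, hg⟩ := hcyc.exists_generator
    refine ⟨⟨?_⟩⟩
    intro a b
    obtain ⟨m, rfl⟩ := Subgroup.mem_zpowers_iff.mp (hg a)
    obtain ⟨n, rfl⟩ := Subgroup.mem_zpowers_iff.mp (hg b)
    rw [← zpow_add, ← zpow_add, add_comm]
  · -- `r ∈ τ₂(M)`
    have hτ : r ∈ tau2 M := ⟨hrp, hr, hle2, h1⟩
    obtain ⟨S, hS⟩ := sylSet_nonempty r M
    obtain ⟨A, hAS, hAel, hAcard⟩ := exists_elemAb2_le_sylSet h1 hS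
    have h := (h17 M hM r hτ A ⟨hAS.trans hS.1, hAel, hAcard⟩).2.1
    obtain ⟨P, hP⟩ := (hR.comap_subtype (K := M)).exists_le_sylow
    have hPc := (h P).1
    refine ⟨⟨?_⟩⟩
    rintro ⟨a, ha⟩ ⟨b, hb⟩
    apply Subtype.ext
    show a * b = b * a
    have haP : (⟨a, hRM ha⟩ : M) ∈ (P : Subgroup M) := hP (by exact ha)
    have hbP : (⟨b, hRM hb⟩ : M) ∈ (P : Subgroup M) := hP (by exact hb)
    have hcomm := hPc.is_comm.comm (⟨⟨a, hRM ha⟩, haP⟩ : (P : Subgroup M)) ⟨⟨b, hRM hb⟩, hbP⟩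
    have h2 := congrArg (fun x : (P : Subgroup M) => ((x : M) : G)) hcomm
    exact h2

end Cfsg.Agent.Lib.Helper66.BG12
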