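import Mathlib
import Cfsg.Agent.S4127
import Cfsg.Agent.Lib.Helper21.BaerP4
import Cfsg.Agent.Lib.Helper21.BaerP5

set_option autoImplicit false

namespace Cfsg.Agent.Lib.Helper66

namespace BaerAux

variable {G : Type*} [Group G] [Finite G]

/-- (SYL) a q-element whose class size is prime to q lies in a Sylow q-subgroup that
centralizes it -/
theorem exists_sylow_centralizing (q : ℕ) [hq : Fact q.Prime] (x : G)
    (hx : ∃ k : ℕ, orderOf x = q ^ k)
    (hi : ¬ q ∣ (Subgroup.centralizer ({x} : Set G)).index) :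
    ∃ Q1 : Sylow q G, x ∈ Q1 ∧ (Q1 : Subgroup G) ≤ Subgroup.centralizer ({x} : Set G) := by
  set C := Subgroup.centralizer ({x} : Set G) with hC
  have hxC : x ∈ C := by
    rw [hC, Subgroup.mem_centralizer_iff]
    intro h hh
    rw [Set.mem_singleton_iff] at hh
    rw [hh]
  obtain ⟨k, hk⟩ := hx
  have hk' : x ^ (q ^ k) = 1 := by rw [← hk]; exact pow_orderOf_eq_one x
  have hz : IsPGroup q (Subgroup.zpowers (⟨x, hxC⟩ : C)) :=
    Cfsg.Agent.S4127.isPGroup_zpowers q _ k (Subtype.ext (by simpa using hk'))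
  obtain ⟨T0, hT0⟩ := hz.exists_le_sylow
  have hcard : Nat.card ((T0 : Subgroup C).map C.subtype) = q ^ (Nat.card G).factorization q := by
    rw [Subgroup.card_subtype, Sylow.card_eq_multiplicity T0]
    congr 1
    have h2 : Nat.card C * C.index = Nat.card G := Subgroup.card_mul_index C
    have hi0 : C.index ≠ 0 := Subgroup.index_ne_zero_of_finite
    have hc0 : Nat.card C ≠ 0 := Nat.card_pos.ne'
    rw [← h2, Nat.factorization_mul hc0 hi0]
    have h3 : C.index.factorization q = 0 := Nat.factorization_eq_zero_of_not_dvd hi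
    simp [h3]
  refine ⟨Sylow.ofCard _ hcard, ?_, ?_⟩
  · show x ∈ (T0 : Subgroup C).map C.subtype
    exact ⟨⟨x, hxC⟩, hT0 (Subgroup.mem_zpowers _), rfl⟩
  · show (T0 : Subgroup C).map C.subtype ≤ C
    exact Subgroup.map_subtype_le _

/-- (IDX) the index of an intersection of subgroups of coprime indices -/
theorem index_inf_of_coprime (A B : Subgroup G) (h : (A.index).Coprime B.index) :
    (A ⊓ B).index = A.index * B.index := by
  have h1 : A.index ∣ (A ⊓ B).index := Subgroup.index_dvd_of_le inf_le_left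
  have h2 : B.index ∣ (A ⊓ B).index := Subgroup.index_dvd_of_le inf_le_right
  have h3 : A.index * B.index ∣ (A ⊓ B).index := Nat.Coprime.mul_dvd_of_dvd_of_dvd h h1 h2
  have h4 : (A ⊓ B).index ≤ A.index * B.index := Subgroup.index_inf_le
  have h5 : (A ⊓ B).index ≠ 0 := Subgroup.index_ne_zero_of_finite
  exact le_antisymm h4 (Nat.le_of_dvd (Nat.pos_of_ne_zero h5) h3)

/-- class sizes are invariant under conjugation -/
theorem index_centralizer_conj (g y : G) :
    (Subgroup.centralizer ({g * y * g⁻¹} : Set G)).index =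
      (Subgroup.centralizer ({y} : Set G)).index := by
  have h : Subgroup.centralizer ({y} : Set G) =
      (Subgroup.centralizer ({g * y * g⁻¹} : Set G)).comap (MulAut.conj g).toMonoidHom := by
    ext c
    rw [Subgroup.mem_comap, Subgroup.mem_centralizer_iff, Subgroup.mem_centralizer_iff]
    simp only [Set.mem_singleton_iff, forall_eq, MulEquiv.coe_toMonoidHom, MulAut.conj_apply]
    constructor
    · intro h1
      calc g * y * g⁻¹ * (g * c * g⁻¹) = g * (y * c) * g⁻¹ := by group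
        _ = g * (c * y) * g⁻¹ := by rw [h1]
        _ = g * c * g⁻¹ * (g * y * g⁻¹) := by group
    · intro h1
      calc y * c = g⁻¹ * (g * y * g⁻¹ * (g * c * g⁻¹)) * g := by group
        _ = g⁻¹ * (g * c * g⁻¹ * (g * y * g⁻¹)) * g := by rw [h1]
        _ = c * y := by group
  rw [h, Subgroup.index_comap_of_surjective _ (MulAut.conj g).surjective]

/-- the centralizer of a product of commuting elements contains the intersection -/
theorem inf_centralizer_le (x y : G) :
    Subgroup.centralizer ({x} : Set G) ⊓ Subgroup.centralizer ({y} : Set G) ≤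
      Subgroup.centralizer ({x * y} : Set G) := by
  intro c hc
  have h1 : c ∈ Subgroup.centralizer ({x} : Set G) := (Subgroup.mem_inf.mp hc).1
  have h2 : c ∈ Subgroup.centralizer ({y} : Set G) := (Subgroup.mem_inf.mp hc).2
  rw [Subgroup.mem_centralizer_iff] at h1 h2
  rw [Subgroup.mem_centralizer_iff]
  intro h hh
  rw [Set.mem_singleton_iff] at hh
  subst hh
  have e1 := h1 x rfl
  have e2 := h2 y rfl
  rw [mul_assoc, e2, ← mul_assoc, e1, mul_assoc]

/-- two prime powers of different primes that are equal are both one -/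
theorem pow_eq_pow_one (p r : ℕ) (hp : p.Prime) (hr : r.Prime) (hpr : p ≠ r) (a b : ℕ)
    (h : p ^ a = r ^ b) : p ^ a = 1 := by
  rcases Nat.eq_zero_or_pos a with h0 | h0
  · rw [h0, pow_zero]
  · exfalso
    have h1 : p ∣ r ^ b := by
      rw [← h]; exact dvd_pow_self p h0.ne'
    have h2 : p ∣ r := hp.dvd_of_dvd_pow h1
    exact hpr ((Nat.prime_dvd_prime_iff_eq hp hr).mp h2)

/-- a prime power dividing `p^a * r^b` is a power of `p` or a power of `r` -/
theorem prime_pow_dvd_cases (p r s : ℕ) (hp : p.Prime) (hr : r.Prime) (hs : s.Prime) (a b c : ℕ)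
    (h : s ^ c ∣ p ^ a * r ^ b) : (∃ c' : ℕ, s ^ c = p ^ c') ∨ (∃ c' : ℕ, s ^ c = r ^ c') := by
  rcases Nat.eq_zero_or_pos c with h0 | h0
  · left; exact ⟨0, by rw [h0, pow_zero, pow_zero]⟩
  · have h1 : s ∣ p ^ a * r ^ b := dvd_trans (dvd_pow_self s h0.ne') h
    rcases (Nat.Prime.dvd_mul hs).mp h1 with h2 | h2
    · left
      have h3 : s ∣ p := hs.dvd_of_dvd_pow h2
      exact ⟨c, by rw [(Nat.prime_dvd_prime_iff_eq hs hp).mp h3]⟩
    · right
      have h3 : s ∣ r := hs.dvd_of_dvd_pow h2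
      exact ⟨c, by rw [(Nat.prime_dvd_prime_iff_eq hs hr).mp h3]⟩

end BaerAux

open BaerAux

variable {G : Type*} [Group G] [Finite G]

theorem unique_prime_off (q : ℕ) [Fact q.Prime]
    (hBaer : ∀ x : G, (∃ k : ℕ, orderOf x = q ^ k) → ∃ (r : ℕ) (a : ℕ), r.Prime ∧
      (Subgroup.centralizer ({x} : Set G)).index = r ^ a)
    (p r : ℕ) (hp : p.Prime) (hr : r.Prime) (hpr : p ≠ r) (hpq : p ≠ q) (hrq : r ≠ q) (x y : G)
    (hx : ∃ k : ℕ, orderOf x = q ^ k) (hy : ∃ k : ℕ, orderOf y = q ^ k)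
    (hxi : ∃ a : ℕ, (Subgroup.centralizer ({x} : Set G)).index = p ^ a)
    (hyi : ∃ b : ℕ, (Subgroup.centralizer ({y} : Set G)).index = r ^ b) :
    Subgroup.centralizer ({x} : Set G) = ⊤ ∨ Subgroup.centralizer ({y} : Set G) = ⊤ := by
  have hq : q.Prime := Fact.out
  obtain ⟨a, ha⟩ := hxi
  obtain ⟨b, hb⟩ := hyi
  have hqx : ¬ q ∣ (Subgroup.centralizer ({x} : Set G)).index := by
    rw [ha]
    intro h
    exact hpq ((Nat.prime_dvd_prime_iff_eq hq hp).mp (hq.dvd_of_dvd_pow h)).symm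
  obtain ⟨Q1, hxQ, hQx⟩ := exists_sylow_centralizing q x hx hqx
  obtain ⟨ky, hky⟩ := hy
  have hky' : y ^ (q ^ ky) = 1 := by rw [← hky]; exact pow_orderOf_eq_one y
  obtain ⟨g, hg⟩ := Cfsg.Agent.S4127.exists_conj_mem_sylow q Q1 y ky hky'
  set y' := g * y * g⁻¹ with hy'
  have hiy' : (Subgroup.centralizer ({y'} : Set G)).index = r ^ b := by
    rw [hy', index_centralizer_conj, hb]
  have hcomm : x * y' = y' * x := by
    have h1 := hQx hg
    rw [Subgroup.mem_centralizer_iff] at h1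
    exact h1 x rfl
  have hordy' : ∃ k : ℕ, orderOf y' = q ^ k := ⟨ky, by rw [hy', Cfsg.Agent.S4127.orderOf_conj', hky]⟩
  -- x * y' is a q-element
  have hxy'Q : x * y' ∈ (Q1 : Subgroup G) := Subgroup.mul_mem _ hxQ hg
  have hordxy' : ∃ k : ℕ, orderOf (x * y') = q ^ k := by
    obtain ⟨k, hk⟩ := (IsPGroup.iff_orderOf.mp Q1.isPGroup') ⟨x * y', hxy'Q⟩
    exact ⟨k, by rw [← hk, Subgroup.orderOf_mk]⟩
  obtain ⟨s, c, hs, hc⟩ := hBaer (x * y') hordxy'
  have hcop : ((Subgroup.centralizer ({x} : Set G)).index).Coprime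
      (Subgroup.centralizer ({y'} : Set G)).index := by
    rw [ha, hiy']
    exact Nat.Coprime.pow _ _ ((Nat.coprime_primes hp hr).mpr hpr)
  have hidx := index_inf_of_coprime _ _ hcop
  rw [ha, hiy'] at hidx
  have hdvd : s ^ c ∣ p ^ a * r ^ b := by
    rw [← hc, ← hidx]
    exact Subgroup.index_dvd_of_le (inf_centralizer_le x y')
  have hytop : Subgroup.centralizer ({y'} : Set G) = ⊤ →
      Subgroup.centralizer ({y} : Set G) = ⊤ := by
    intro h
    rw [← Subgroup.index_eq_one] at h ⊢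
    rw [← index_centralizer_conj g y]
    exact h
  rcases prime_pow_dvd_cases p r s hp hr hs a b c hdvd with ⟨c', hc'⟩ | ⟨c', hc'⟩
  · -- index of x * y' is a power of p
    right
    apply hytop
    obtain ⟨S, hSn, hSp, hS⟩ := Cfsg.Agent.Lib.Helper21.pair_lemma p r hp hr hpr x y' hcomm
      ⟨a, ha⟩ ⟨b, hiy'⟩ ⟨c', by rw [hc, hc']⟩
    have := hSn
    have : Fact p.Prime := ⟨hp⟩
    obtain ⟨k', hk'⟩ := Cfsg.Agent.Lib.Helper21.index_centralizer_of_comm_mem p q hpq S hSp y'
      hordy' hS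
    rw [← Subgroup.index_eq_one, hk']
    exact pow_eq_pow_one p r hp hr hpr k' b (by rw [← hk', hiy'])
  · -- index of x * y' is a power of r
    left
    obtain ⟨S, hSn, hSp, hS⟩ := Cfsg.Agent.Lib.Helper21.pair_lemma r p hr hp (Ne.symm hpr) y' x
      hcomm.symm ⟨b, hiy'⟩ ⟨a, ha⟩ ⟨c', by rw [← hcomm, hc, hc']⟩
    have := hSn
    have : Fact r.Prime := ⟨hr⟩
    obtain ⟨k', hk'⟩ := Cfsg.Agent.Lib.Helper21.index_centralizer_of_comm_mem r q hrq S hSp x
      hx hS
    rw [← Subgroup.index_eq_one, hk']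
    exact pow_eq_pow_one r p hr hp (Ne.symm hpr) k' a (by rw [← hk', ha])

end Cfsg.Agent.Lib.Helper66
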