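import Mathlib
import Cfsg.Agent.Lib.Helper1.Hall
import Cfsg.Agent.Lib.Helper30.Basic
import Cfsg.Agent.Lib.Helper66.Cores

set_option autoImplicit false
set_option linter.style.haveILetI false

namespace Cfsg.Agent.Lib.Helper66

open Cfsg Cfsg.Agent.Lib
open scoped Pointwise

universe u

/-- In a finite cyclic group, subgroups of equal order are equal. -/
theorem cyc_subgroup_le {A : Type*} [Group A] [Finite A] [IsCyclic A] (H K : Subgroup A)
    (h : Nat.card H = Nat.card K) : H ≤ K := by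
  classical
  have : Fintype A := Fintype.ofFinite A
  have hdpos : 0 < Nat.card K := Nat.card_pos
  have hT : (Finset.univ.filter (fun a : A => a ^ Nat.card K = 1)).card ≤ Nat.card K :=
    IsCyclic.card_pow_eq_one_le hdpos
  have hKT : Finset.univ.filter (fun a : A => a ∈ K) ⊆
      Finset.univ.filter (fun a : A => a ^ Nat.card K = 1) := by
    intro a ha
    rw [Finset.mem_filter] at ha ⊢
    refine ⟨ha.1, ?_⟩
    have h1 : (⟨a, ha.2⟩ : K) ^ Nat.card K = 1 := pow_card_eq_one'
    exact congrArg Subtype.val h1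
  have hKcard : (Finset.univ.filter (fun a : A => a ∈ K)).card = Nat.card K := by
    rw [Nat.card_eq_fintype_card, Fintype.card_subtype]
  have hEq : Finset.univ.filter (fun a : A => a ∈ K) =
      Finset.univ.filter (fun a : A => a ^ Nat.card K = 1) :=
    Finset.eq_of_subset_of_card_le hKT (by rw [hKcard]; exact hT)
  intro a ha
  have h1 : (⟨a, ha⟩ : H) ^ Nat.card H = 1 := pow_card_eq_one'
  have h2 : a ^ Nat.card K = 1 := by
    rw [← h]
    exact congrArg Subtype.val h1
  have h3 : a ∈ Finset.univ.filter (fun a : A => a ^ Nat.card K = 1) :=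
    Finset.mem_filter.mpr ⟨Finset.mem_univ _, h2⟩
  rw [← hEq] at h3
  exact (Finset.mem_filter.mp h3).2

theorem cyc_subgroup_eq {A : Type*} [Group A] [Finite A] [IsCyclic A] (H K : Subgroup A)
    (h : Nat.card H = Nat.card K) : H = K :=
  le_antisymm (cyc_subgroup_le H K h) (cyc_subgroup_le K H h.symm)

/-- Two subgroups of equal order inside a cyclic subgroup coincide. -/
theorem eq_of_le_cyclic {G : Type*} [Group G] [Finite G] (S : Subgroup G) [IsCyclic S]
    {H K : Subgroup G} (hH : H ≤ S) (hK : K ≤ S) (h : Nat.card H = Nat.card K) : H = K := by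
  have h1 : H.subgroupOf S = K.subgroupOf S := by
    apply cyc_subgroup_eq
    rw [Helper1.card_subgroupOf_of_le hH, Helper1.card_subgroupOf_of_le hK, h]
  have h2 := congrArg (Subgroup.map S.subtype) h1
  rwa [Subgroup.subgroupOf_map_subtype, Subgroup.subgroupOf_map_subtype, inf_of_le_left hH,
    inf_of_le_left hK] at h2

theorem sylow_coe_smul {G : Type*} [Group G] {p : ℕ} (g : G) (P : Sylow p G) :
    ((g • P : Sylow p G) : Subgroup G) = MulAut.conj g • (P : Subgroup G) := rfl

/-- If the Sylow `p`-subgroups are cyclic, `p`-subgroups of equal order are conjugate. -/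
theorem sylow_cyclic_conj {G : Type*} [Group G] [Finite G] {p : ℕ} [Fact p.Prime]
    (hc : ∀ P : Sylow p G, IsCyclic P) (H K : Subgroup G) (hH : IsPGroup p H)
    (hK : IsPGroup p K) (h : Nat.card H = Nat.card K) : ∃ g : G, MulAut.conj g • H = K := by
  obtain ⟨P₁, hP₁⟩ := hH.exists_le_sylow
  obtain ⟨P₂, hP₂⟩ := hK.exists_le_sylow
  obtain ⟨g, hg⟩ := MulAction.exists_smul_eq G P₁ P₂
  refine ⟨g, ?_⟩
  haveI := hc P₂
  have h1 : MulAut.conj g • H ≤ (P₂ : Subgroup G) := by
    rw [← hg, sylow_coe_smul]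
    exact Subgroup.pointwise_smul_le_pointwise_smul_iff.mpr hP₁
  exact eq_of_le_cyclic (P₂ : Subgroup G) h1 hP₂ (by rw [Helper1.card_conj_smul, h])

/-- A subgroup of a cyclic Sylow subgroup is cyclic. -/
theorem isCyclic_of_pgroup {G : Type*} [Group G] [Finite G] {p : ℕ} [Fact p.Prime]
    (hc : ∀ P : Sylow p G, IsCyclic P) (H : Subgroup G) (hH : IsPGroup p H) : IsCyclic H := by
  obtain ⟨P, hP⟩ := hH.exists_le_sylow
  haveI := hc P
  have h1 : IsCyclic (H.subgroupOf P) := inferInstance
  exact isCyclic_of_surjective (Subgroup.subgroupOfEquivOfLe hP).toMonoidHom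
    (Subgroup.subgroupOfEquivOfLe hP).surjective

theorem map_conj_smul {G G' : Type*} [Group G] [Group G'] (f : G →* G') (g : G)
    (H : Subgroup G) : (MulAut.conj g • H).map f = MulAut.conj (f g) • H.map f := by
  rw [Helper1.conj_smul_eq_map, Helper1.conj_smul_eq_map, Subgroup.map_map, Subgroup.map_map]
  congr 1
  ext y
  simp

theorem sylow_quot_eq_map {G : Type*} [Group G] [Finite G] {p : ℕ} [Fact p.Prime]
    (N : Subgroup G) [N.Normal] (Pb : Sylow p (G ⧸ N)) :
    ∃ P : Sylow p G, (Pb : Subgroup (G ⧸ N)) = (P : Subgroup G).map (QuotientGroup.mk' N) := by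
  obtain ⟨P₀⟩ : Nonempty (Sylow p G) := inferInstance
  obtain ⟨gb, hgb⟩ := MulAction.exists_smul_eq (G ⧸ N)
    (P₀.mapSurjective (QuotientGroup.mk'_surjective N)) Pb
  obtain ⟨g, rfl⟩ := QuotientGroup.mk_surjective gb
  refine ⟨g • P₀, ?_⟩
  rw [← hgb, sylow_coe_smul, sylow_coe_smul, Sylow.coe_mapSurjective, map_conj_smul]
  rfl

theorem sylow_quot_cyclic {G : Type*} [Group G] [Finite G] {p : ℕ} [Fact p.Prime]
    (N : Subgroup G) [N.Normal] (hc : ∀ P : Sylow p G, IsCyclic P) (Pb : Sylow p (G ⧸ N)) :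
    IsCyclic Pb := by
  obtain ⟨P, hP⟩ := sylow_quot_eq_map N Pb
  haveI := hc P
  have h1 : IsCyclic ((P : Subgroup G).map (QuotientGroup.mk' N)) :=
    isCyclic_of_surjective ((QuotientGroup.mk' N).subgroupMap (P : Subgroup G))
      ((QuotientGroup.mk' N).subgroupMap_surjective _)
  show IsCyclic (Pb : Subgroup (G ⧸ N))
  rw [hP]
  exact h1

/-- Lifting a `p`-subgroup of a quotient by a normal `p'`-subgroup. -/
theorem exists_lift_pgroup {G : Type*} [Group G] [Finite G] {p : ℕ} [Fact p.Prime]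
    (N : Subgroup G) [N.Normal] (hN : (Nat.card N).Coprime p) (Hb : Subgroup (G ⧸ N))
    (hHb : IsPGroup p Hb) :
    ∃ H : Subgroup G, IsPGroup p H ∧ H.map (QuotientGroup.mk' N) = Hb ∧
      Nat.card H = Nat.card Hb := by
  obtain ⟨Pb, hPb⟩ := hHb.exists_le_sylow
  obtain ⟨P, hP⟩ := sylow_quot_eq_map N Pb
  have hHp : IsPGroup p ((P : Subgroup G) ⊓ Hb.comap (QuotientGroup.mk' N) : Subgroup G) :=
    P.isPGroup'.to_le inf_le_left
  have hmap : ((P : Subgroup G) ⊓ Hb.comap (QuotientGroup.mk' N)).map (QuotientGroup.mk' N)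
      = Hb := by
    apply le_antisymm
    · rintro _ ⟨x, hx, rfl⟩
      exact hx.2
    · intro y hy
      have h1 : y ∈ (P : Subgroup G).map (QuotientGroup.mk' N) := by
        rw [← hP]; exact hPb hy
      obtain ⟨x, hx, rfl⟩ := h1
      exact ⟨x, ⟨hx, hy⟩, rfl⟩
  refine ⟨_, hHp, hmap, ?_⟩
  obtain ⟨k, hk⟩ := hHp.exists_card_eq
  have hcop : (Nat.card N).Coprime
      (Nat.card ((P : Subgroup G) ⊓ Hb.comap (QuotientGroup.mk' N) : Subgroup G)) := by
    rw [hk]; exact Nat.Coprime.pow_right k hN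
  have h1 := Helper1.relIndex_eq_card_of_inf_eq_bot (Helper1.inf_eq_bot_of_coprime_card hcop)
  have h2 := Subgroup.relIndex_ker (K := (P : Subgroup G) ⊓ Hb.comap (QuotientGroup.mk' N))
    (QuotientGroup.mk' N)
  rw [QuotientGroup.ker_mk'] at h2
  rw [← h1, h2, hmap]

theorem conj_quot_of_coprime {G : Type*} [Group G] [Finite G] {p : ℕ} [Fact p.Prime]
    (N : Subgroup G) [N.Normal] (hN : (Nat.card N).Coprime p)
    (hD : ∀ H K : Subgroup G, IsPGroup p H → IsPGroup p K → Nat.card H = Nat.card K →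
      ∃ g : G, MulAut.conj g • H = K)
    (Hb Kb : Subgroup (G ⧸ N)) (hHb : IsPGroup p Hb) (hKb : IsPGroup p Kb)
    (h : Nat.card Hb = Nat.card Kb) : ∃ g : G ⧸ N, MulAut.conj g • Hb = Kb := by
  obtain ⟨H, hH, hHm, hHc⟩ := exists_lift_pgroup N hN Hb hHb
  obtain ⟨K, hK, hKm, hKc⟩ := exists_lift_pgroup N hN Kb hKb
  obtain ⟨g, hg⟩ := hD H K hH hK (by rw [hHc, hKc, h])
  refine ⟨QuotientGroup.mk' N g, ?_⟩
  rw [← hHm, ← map_conj_smul, hg, hKm]

theorem exists_normal_prime_order {G : Type*} [Group G] [Finite G] {s : ℕ} [Fact s.Prime]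
    (hc : ∀ P : Sylow s G, IsCyclic P) (hC : pCore s G ≠ ⊥) :
    ∃ N : Subgroup G, N.Normal ∧ Nat.card N = s ∧ ∀ H : Subgroup G, s ∣ Nat.card H → N ≤ H := by
  have hCp : IsPGroup s (pCore s G) := isPGroup_pCore s
  obtain ⟨k, hk⟩ := hCp.exists_card_eq
  have hk0 : k ≠ 0 := by
    rintro rfl
    rw [pow_zero] at hk
    exact hC (Subgroup.card_eq_one.mp hk)
  have hdvd : s ∣ Nat.card (pCore s G) := hk ▸ dvd_pow_self s hk0
  obtain ⟨x, hx⟩ := exists_prime_orderOf_dvd_card' s hdvd
  have hNcard : Nat.card (Subgroup.zpowers (x : G)) = s := by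
    rw [Nat.card_zpowers, Subgroup.orderOf_coe, hx]
  have key : ∀ Y : Subgroup G, Nat.card Y = s → Y = Subgroup.zpowers (x : G) := by
    intro Y hY
    have hYp : IsPGroup s Y := IsPGroup.of_card (n := 1) (by rw [hY, pow_one])
    obtain ⟨S, hS⟩ := hYp.exists_le_sylow
    haveI := hc S
    have hNS : Subgroup.zpowers (x : G) ≤ S := by
      have h1 : Subgroup.zpowers (x : G) ≤ pCore s G := by
        rw [Subgroup.zpowers_le]; exact x.2
      have h2 : pCore s G ≤ S := by
        have h3 : IsPGroup s (pCore s G ⊔ (S : Subgroup G) : Subgroup G) :=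
          IsPGroup.to_sup_of_normal_left hCp S.isPGroup'
        have h4 := S.is_maximal' h3 le_sup_right
        rw [← h4]; exact le_sup_left
      exact h1.trans h2
    exact eq_of_le_cyclic (S : Subgroup G) hS hNS (by rw [hY, hNcard])
  refine ⟨Subgroup.zpowers (x : G), ?_, hNcard, ?_⟩
  · constructor
    intro n hn g
    have h1 : MulAut.conj g • Subgroup.zpowers (x : G) = Subgroup.zpowers (x : G) :=
      key _ (by rw [Helper1.card_conj_smul, hNcard])
    rw [← h1, Helper1.mem_conj_smul_iff]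
    have : g⁻¹ * (g * n * g⁻¹) * g = n := by group
    rw [this]
    exact hn
  · intro H hH
    obtain ⟨y, hy⟩ := exists_prime_orderOf_dvd_card' s hH
    have h1 := key (Subgroup.zpowers (y : G))
      (by rw [Nat.card_zpowers, Subgroup.orderOf_coe, hy])
    rw [← h1, Subgroup.zpowers_le]
    exact y.2

theorem eqord_case1 {G : Type u} [Group G] [Finite G] [Group.IsSolvable G] (r : ℕ)
    (IH : ∀ (G' : Type u) [Group G'] [Finite G'] [Group.IsSolvable G'],
      Nat.card G' < Nat.card G →
      (∀ p : ℕ, p.Prime → ∀ H K : Subgroup G', IsPGroup p H → IsPGroup p K →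
        Nat.card H = Nat.card K → ∃ g : G', MulAut.conj g • H = K) →
      (∀ p : ℕ, p.Prime → p ≠ r → ∀ P : Sylow p G', IsCyclic P) →
      ∀ H K : Subgroup G', Nat.card H = Nat.card K → ∃ g : G', MulAut.conj g • H = K)
    (hD : ∀ p : ℕ, p.Prime → ∀ H K : Subgroup G, IsPGroup p H → IsPGroup p K →
      Nat.card H = Nat.card K → ∃ g : G, MulAut.conj g • H = K)
    (hcyc : ∀ p : ℕ, p.Prime → p ≠ r → ∀ P : Sylow p G, IsCyclic P)
    (s : ℕ) (hs : s.Prime) (hsr : s ≠ r) (hC : pCore s G ≠ ⊥)
    (H K : Subgroup G) (h : Nat.card H = Nat.card K) : ∃ g : G, MulAut.conj g • H = K := by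
  haveI : Fact s.Prime := ⟨hs⟩
  obtain ⟨N, hNn, hNcard, hNle⟩ := exists_normal_prime_order (hcyc s hs hsr) hC
  haveI := hNn
  have hNbot : N ≠ ⊥ := by
    intro h0
    rw [h0, Subgroup.card_bot] at hNcard
    exact hs.ne_one hNcard.symm
  have hlt : Nat.card (G ⧸ N) < Nat.card G := Helper1.card_quotient_lt hNbot
  have hcyc' : ∀ p : ℕ, p.Prime → p ≠ r → ∀ P : Sylow p (G ⧸ N), IsCyclic P := by
    intro p hp hpr P
    haveI : Fact p.Prime := ⟨hp⟩
    exact sylow_quot_cyclic N (hcyc p hp hpr) P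
  have hD' : ∀ p : ℕ, p.Prime → ∀ H K : Subgroup (G ⧸ N), IsPGroup p H → IsPGroup p K →
      Nat.card H = Nat.card K → ∃ g : G ⧸ N, MulAut.conj g • H = K := by
    intro p hp Hb Kb hHb hKb hcard
    haveI : Fact p.Prime := ⟨hp⟩
    by_cases hps : p = s
    · subst hps
      exact sylow_cyclic_conj (hcyc' p hp hsr) Hb Kb hHb hKb hcard
    · have hcop : (Nat.card N).Coprime p := by
        rw [hNcard]; exact (Nat.coprime_primes hs hp).mpr (Ne.symm hps)
      exact conj_quot_of_coprime N hcop (hD p hp) Hb Kb hHb hKb hcard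
  have IH' := IH (G ⧸ N) hlt hD' hcyc'
  by_cases hdiv : s ∣ Nat.card H
  · have hNH : N ≤ H := hNle H hdiv
    have hNK : N ≤ K := hNle K (h ▸ hdiv)
    have hcm : ∀ X : Subgroup G, N ≤ X →
        Nat.card (X.map (QuotientGroup.mk' N)) * s = Nat.card X := by
      intro X hX
      have h2 := Subgroup.relIndex_ker (K := X) (QuotientGroup.mk' N)
      rw [QuotientGroup.ker_mk'] at h2
      rw [← h2, ← hNcard, ← Helper1.card_subgroupOf_of_le hX, Subgroup.relIndex, mul_comm]
      exact Subgroup.card_mul_index _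
    have hcard' : Nat.card (H.map (QuotientGroup.mk' N)) =
        Nat.card (K.map (QuotientGroup.mk' N)) := by
      have h1 := hcm H hNH
      have h2 := hcm K hNK
      have : Nat.card (H.map (QuotientGroup.mk' N)) * s =
          Nat.card (K.map (QuotientGroup.mk' N)) * s := by rw [h1, h2, h]
      exact Nat.eq_of_mul_eq_mul_right hs.pos this
    obtain ⟨gb, hgb⟩ := IH' _ _ hcard'
    obtain ⟨g, rfl⟩ := QuotientGroup.mk_surjective gb
    refine ⟨g, ?_⟩
    symm
    apply Subgroup.eq_of_le_of_card_ge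
    · intro k hk
      have h1 : (QuotientGroup.mk' N k) ∈ K.map (QuotientGroup.mk' N) :=
        Subgroup.mem_map_of_mem _ hk
      rw [← hgb] at h1
      have h1' : (QuotientGroup.mk' N k) ∈ (MulAut.conj g • H).map (QuotientGroup.mk' N) := by
        rw [map_conj_smul]; exact h1
      obtain ⟨x, hx, hxk⟩ := h1'
      have h2 : x⁻¹ * k ∈ N := QuotientGroup.eq.mp hxk
      have hN' : N ≤ MulAut.conj g • H := Helper1.conj_smul_le_of_le_normal hNH g
      have : k = x * (x⁻¹ * k) := by group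
      rw [this]
      exact Subgroup.mul_mem _ hx (hN' h2)
    · rw [Helper1.card_conj_smul, h]
  · have hcop : ∀ X : Subgroup G, Nat.card X = Nat.card H →
        (Nat.card N).Coprime (Nat.card X) := by
      intro X hX
      rw [hNcard, hX]; exact (Nat.Prime.coprime_iff_not_dvd hs).mpr hdiv
    have hcm : ∀ X : Subgroup G, Nat.card X = Nat.card H →
        Nat.card (X.map (QuotientGroup.mk' N)) = Nat.card X := by
      intro X hX
      have h1 := Helper1.relIndex_eq_card_of_inf_eq_bot
        (Helper1.inf_eq_bot_of_coprime_card (hcop X hX))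
      have h2 := Subgroup.relIndex_ker (K := X) (QuotientGroup.mk' N)
      rw [QuotientGroup.ker_mk'] at h2
      rw [← h2, h1]
    obtain ⟨gb, hgb⟩ := IH' (H.map (QuotientGroup.mk' N)) (K.map (QuotientGroup.mk' N))
      (by rw [hcm H rfl, hcm K h.symm, h])
    obtain ⟨g, hg⟩ := Helper1.conj_sup_of_map N gb hgb
    haveI : Group.IsSolvable (MulAut.conj g • H : Subgroup G) := Helper1.isSolvable_conj_smul g H
    obtain ⟨k, hk, hk2⟩ := Helper1.sz_conj_rel (A := MulAut.conj g • H) (K := N) (B := K)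
      (by rw [Subgroup.normalizer_eq_top]; exact le_top)
      (by rw [Helper1.card_conj_smul]; exact (hcop H rfl).symm)
      (Or.inl inferInstance)
      (by rw [hg]; exact le_sup_left)
      (by rw [Helper1.card_conj_smul, h])
    refine ⟨k * g, ?_⟩
    rw [map_mul, mul_smul]
    exact hk2

theorem comm_le_centralizer_cyc {G : Type*} [Group G] (N : Subgroup G) [N.Normal]
    [hN : IsCyclic N] : commutator G ≤ Subgroup.centralizer (N : Set G) := by
  let _ := (hN.mulAutMulEquiv _).toMonoidHom.commGroupOfInjective (hN.mulAutMulEquiv _).injective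
  have h := Abelianization.commutator_subset_ker (MulAut.conjNormal (H := N))
  intro x hx
  have hx1 : MulAut.conjNormal (H := N) x = 1 := h hx
  rw [Subgroup.mem_centralizer_iff]
  intro n hn
  have h2 := congrArg (fun e : MulAut N => ((e ⟨n, hn⟩ : N) : G)) hx1
  simp only [MulAut.conjNormal_apply, MulAut.one_apply] at h2
  calc n * x = (x * n * x⁻¹) * x := by rw [h2]
    _ = x * n := by group

theorem solv_cent_fitting_le {G : Type u} [Group G] [Finite G] [Group.IsSolvable G] :
    Subgroup.centralizer (fittingSubgroup G : Set G) ≤ fittingSubgroup G := by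
  have hl : layer G = ⊥ := by
    unfold layer
    have : {K : Subgroup G | IsComponent K} = ∅ := by
      ext K
      simp only [Set.mem_ofPred_eq, Set.mem_empty_iff_false, iff_false]
      intro hK
      exact Helper30.comp_not_solvable hK inferInstance
    rw [this, sSup_empty]
  have h := Helper30.centralizer_genFitting_le (G := G)
  have e : generalizedFittingSubgroup G = fittingSubgroup G := by
    show layer G ⊔ fittingSubgroup G = fittingSubgroup G
    rw [hl, bot_sup_eq]
  rwa [e] at h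

theorem sylow_eq_pCore_of_fitting {G : Type u} [Group G] [Finite G] [Group.IsSolvable G]
    {r : ℕ} [Fact r.Prime]
    (hD : ∀ H K : Subgroup G, IsPGroup r H → IsPGroup r K → Nat.card H = Nat.card K →
      ∃ g : G, MulAut.conj g • H = K)
    (hF : fittingSubgroup G = pCore r G) (R : Sylow r G) : (R : Subgroup G) = pCore r G := by
  have hUp : IsPGroup r (pCore r G) := isPGroup_pCore r
  have hUR : pCore r G ≤ R := by
    have h3 : IsPGroup r (pCore r G ⊔ (R : Subgroup G) : Subgroup G) :=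
      IsPGroup.to_sup_of_normal_left hUp R.isPGroup'
    have h4 := R.is_maximal' h3 le_sup_right
    rw [← h4]; exact le_sup_left
  apply le_antisymm _ hUR
  by_contra hcon
  obtain ⟨y, hyR, hyU⟩ := SetLike.not_le_iff_exists.mp hcon
  have hYR : Subgroup.zpowers y ≤ R := Subgroup.zpowers_le.mpr hyR
  have hYp : IsPGroup r (Subgroup.zpowers y) := R.isPGroup'.to_le hYR
  obtain ⟨j, hj⟩ := hYp.exists_card_eq
  obtain ⟨i, hi⟩ := hUp.exists_card_eq
  by_cases hji : j ≤ i
  · have hdvd : r ^ j ∣ Nat.card (pCore r G) := by rw [hi]; exact pow_dvd_pow r hji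
    obtain ⟨X', hX'⟩ := Sylow.exists_subgroup_card_pow_prime r hdvd
    have hXcard : Nat.card (X'.map (pCore r G).subtype) = r ^ j := by
      rw [Subgroup.card_map_of_injective (Subgroup.subtype_injective _)]; exact hX'
    have hXU : X'.map (pCore r G).subtype ≤ pCore r G := by
      rintro _ ⟨x, _, rfl⟩
      exact x.2
    obtain ⟨g, hg⟩ := hD _ _ (hUp.to_le hXU) hYp (by rw [hXcard, hj])
    apply hyU
    have h1 : y ∈ MulAut.conj g • X'.map (pCore r G).subtype := by
      rw [hg]; exact Subgroup.mem_zpowers y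
    have h2 : MulAut.conj g • X'.map (pCore r G).subtype ≤ MulAut.conj g • pCore r G :=
      Subgroup.pointwise_smul_le_pointwise_smul_iff.mpr hXU
    rw [Helper1.conj_smul_eq_self_of_normal (pCore r G) g] at h2
    exact h2 h1
  · push Not at hji
    have hdvd : r ^ i ∣ Nat.card (Subgroup.zpowers y) := by
      rw [hj]; exact pow_dvd_pow r hji.le
    obtain ⟨X', hX'⟩ := Sylow.exists_subgroup_card_pow_prime r hdvd
    have hXcard : Nat.card (X'.map (Subgroup.zpowers y).subtype) = r ^ i := by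
      rw [Subgroup.card_map_of_injective (Subgroup.subtype_injective _)]; exact hX'
    have hXY : X'.map (Subgroup.zpowers y).subtype ≤ Subgroup.zpowers y := by
      rintro _ ⟨x, _, rfl⟩
      exact x.2
    obtain ⟨g, hg⟩ := hD _ _ (hYp.to_le hXY) hUp (by rw [hXcard, hi])
    have hXcyc : IsCyclic (X'.map (Subgroup.zpowers y).subtype) :=
      isCyclic_of_surjective ((Subgroup.zpowers y).subtype.subgroupMap X')
        ((Subgroup.zpowers y).subtype.subgroupMap_surjective X')
    have hUcyc : IsCyclic (pCore r G) := by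
      rw [← hg, Helper1.conj_smul_eq_map]
      exact isCyclic_of_surjective ((MulAut.conj g).toMonoidHom.subgroupMap _)
        ((MulAut.conj g).toMonoidHom.subgroupMap_surjective _)
    have h1 : commutator G ≤ pCore r G := by
      refine (comm_le_centralizer_cyc (pCore r G)).trans ?_
      have := solv_cent_fitting_le (G := G)
      rwa [hF] at this
    have hRn : (R : Subgroup G).Normal := by
      constructor
      intro x hx g
      have h2 : g * x * g⁻¹ * x⁻¹ ∈ commutator G := by
        rw [commutator_def, ← commutatorElement_def]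
        exact Subgroup.commutator_mem_commutator (Subgroup.mem_top g) (Subgroup.mem_top x)
      have h3 : g * x * g⁻¹ = (g * x * g⁻¹ * x⁻¹) * x := by group
      rw [h3]
      exact Subgroup.mul_mem _ (hUR (h1 h2)) hx
    exact hyU (le_pCore hRn R.isPGroup' hyR)

theorem pow_eq_of_mul_eq {r i j m m' : ℕ} (hr : r.Prime) (hm : ¬ r ∣ m) (hm' : ¬ r ∣ m')
    (h : r ^ i * m = r ^ j * m') : r ^ i = r ^ j := by
  have c1 : Nat.Coprime (r ^ i) m' :=
    Nat.Coprime.pow_left i ((Nat.Prime.coprime_iff_not_dvd hr).mpr hm')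
  have c2 : Nat.Coprime (r ^ j) m :=
    Nat.Coprime.pow_left j ((Nat.Prime.coprime_iff_not_dvd hr).mpr hm)
  have d1 : r ^ i ∣ r ^ j := c1.dvd_of_dvd_mul_right (h ▸ dvd_mul_right _ _)
  have d2 : r ^ j ∣ r ^ i := c2.dvd_of_dvd_mul_right (h.symm ▸ dvd_mul_right _ _)
  exact Nat.dvd_antisymm d1 d2

theorem card_inf_mul_relIndex {G : Type*} [Group G] [Finite G] (U X : Subgroup G) :
    Nat.card (X ⊓ U : Subgroup G) * U.relIndex X = Nat.card X := by
  have h1 : Nat.card (U.subgroupOf X) = Nat.card (X ⊓ U : Subgroup G) := by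
    rw [← Subgroup.card_map_of_injective (Subgroup.subtype_injective X),
      Subgroup.subgroupOf_map_subtype, inf_comm]
  rw [← h1, Subgroup.relIndex]
  exact Subgroup.card_mul_index _

theorem eqord_case2 {G : Type u} [Group G] [Finite G] [Group.IsSolvable G] (r : ℕ)
    (IH : ∀ (G' : Type u) [Group G'] [Finite G'] [Group.IsSolvable G'],
      Nat.card G' < Nat.card G →
      (∀ p : ℕ, p.Prime → ∀ H K : Subgroup G', IsPGroup p H → IsPGroup p K →
        Nat.card H = Nat.card K → ∃ g : G', MulAut.conj g • H = K) →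
      (∀ p : ℕ, p.Prime → p ≠ r → ∀ P : Sylow p G', IsCyclic P) →
      ∀ H K : Subgroup G', Nat.card H = Nat.card K → ∃ g : G', MulAut.conj g • H = K)
    (hD : ∀ p : ℕ, p.Prime → ∀ H K : Subgroup G, IsPGroup p H → IsPGroup p K →
      Nat.card H = Nat.card K → ∃ g : G, MulAut.conj g • H = K)
    (hcyc : ∀ p : ℕ, p.Prime → p ≠ r → ∀ P : Sylow p G, IsCyclic P)
    (hr : r.Prime) (U : Subgroup G) [hUn : U.Normal] (hUp : IsPGroup r U) (hUbot : U ≠ ⊥)
    (hUidx : ¬ r ∣ U.index)
    (H K : Subgroup G) (h : Nat.card H = Nat.card K) : ∃ g : G, MulAut.conj g • H = K := by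
  haveI : Fact r.Prime := ⟨hr⟩
  have hrel : ∀ X : Subgroup G, ¬ r ∣ U.relIndex X := fun X hdvd =>
    hUidx (hdvd.trans (Subgroup.relIndex_dvd_index_of_normal U X))
  have hVp : ∀ X : Subgroup G, IsPGroup r (X ⊓ U : Subgroup G) := fun X => hUp.to_le inf_le_right
  obtain ⟨i, hi⟩ := (hVp H).exists_card_eq
  obtain ⟨j, hj⟩ := (hVp K).exists_card_eq
  have hH := card_inf_mul_relIndex U H
  have hK := card_inf_mul_relIndex U K
  have hVcard : Nat.card (H ⊓ U : Subgroup G) = Nat.card (K ⊓ U : Subgroup G) := by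
    rw [hi, hj]
    apply pow_eq_of_mul_eq hr (hrel H) (hrel K)
    rw [← hi, ← hj, hH, hK, h]
  obtain ⟨g₁, hg₁⟩ := hD r hr _ _ (hVp H) (hVp K) hVcard
  suffices hmain : ∀ H₁ : Subgroup G, Nat.card H₁ = Nat.card K → H₁ ⊓ U = K ⊓ U →
      ∃ d : G, MulAut.conj d • H₁ = K by
    obtain ⟨d, hd⟩ := hmain (MulAut.conj g₁ • H) (by rw [Helper1.card_conj_smul, h])
      (by rw [← hg₁, Helper1.conj_smul_inf, Helper1.conj_smul_eq_self_of_normal U g₁])
    exact ⟨d * g₁, by rw [map_mul, mul_smul]; exact hd⟩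
  intro H₁ h₁ hV
  have hmEq : U.relIndex H₁ = U.relIndex K := by
    have h2 := card_inf_mul_relIndex U H₁
    rw [hV, h₁, ← hK] at h2
    exact Nat.eq_of_mul_eq_mul_left Nat.card_pos h2
  have hTex : ∀ X : Subgroup G, X ⊓ U = K ⊓ U → U.relIndex X = U.relIndex K →
      ∃ T : Subgroup G, T ≤ X ∧ Nat.card T = U.relIndex K := by
    intro X hXV hXm
    have hXc : Nat.card X = U.relIndex K * Nat.card (K ⊓ U : Subgroup G) := by
      rw [← card_inf_mul_relIndex U X, hXV, hXm, mul_comm]
    have hcop : (U.relIndex K).Coprime (Nat.card (K ⊓ U : Subgroup G)) := by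
      rw [hj]
      exact (Nat.Coprime.pow_left j ((Nat.Prime.coprime_iff_not_dvd hr).mpr (hrel K))).symm
    obtain ⟨T', hT'⟩ := Helper1.hall_exists (G := X) _ _ hXc hcop
    refine ⟨T'.map X.subtype, ?_, ?_⟩
    · rintro _ ⟨x, _, rfl⟩
      exact x.2
    · rw [Subgroup.card_map_of_injective (Subgroup.subtype_injective X)]; exact hT'
  obtain ⟨TH, hTH, hTHc⟩ := hTex H₁ hV hmEq
  obtain ⟨TK, hTK, hTKc⟩ := hTex K rfl rfl
  have hnorm : ∀ X : Subgroup G, X ⊓ U = K ⊓ U →
      X ≤ Subgroup.normalizer ((K ⊓ U : Subgroup G) : Set G) := by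
    intro X hXV x hx
    rw [Helper1.mem_normalizer_iff_conj_smul, ← hXV, Helper1.conj_smul_inf,
      Helper1.conj_smul_eq_self_of_mem hx, Helper1.conj_smul_eq_self_of_normal U x]
  obtain ⟨M, hMdef⟩ : ∃ M : Subgroup G,
      M = Subgroup.normalizer ((K ⊓ U : Subgroup G) : Set G) := ⟨_, rfl⟩
  have hTHM : TH ≤ M := hMdef ▸ hTH.trans (hnorm H₁ hV)
  have hTKM : TK ≤ M := hMdef ▸ hTK.trans (hnorm K rfl)
  have hM0 : Nat.card M ≠ 0 := Nat.card_pos.ne'
  have hG : Nat.card M = (Nat.card M / r ^ (Nat.card M).factorization r) *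
      r ^ (Nat.card M).factorization r := by
    rw [mul_comm]; exact (Nat.ordProj_mul_ordCompl_eq_self _ _).symm
  have hmn : (Nat.card M / r ^ (Nat.card M).factorization r).Coprime
      (r ^ (Nat.card M).factorization r) :=
    (Nat.Coprime.pow_left _ (Nat.coprime_ordCompl hr hM0)).symm
  have hTcop : (U.relIndex K).Coprime (r ^ (Nat.card M).factorization r) :=
    (Nat.Coprime.pow_left _ ((Nat.Prime.coprime_iff_not_dvd hr).mpr (hrel K))).symm
  obtain ⟨Y₁, hY₁c, hY₁⟩ := Helper1.hall_dominance (G := M) _ _ hG hmn (TH.subgroupOf M)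
    (by rw [Helper1.card_subgroupOf_of_le hTHM, hTHc]; exact hTcop)
  obtain ⟨Y₂, hY₂c, hY₂⟩ := Helper1.hall_dominance (G := M) _ _ hG hmn (TK.subgroupOf M)
    (by rw [Helper1.card_subgroupOf_of_le hTKM, hTKc]; exact hTcop)
  obtain ⟨c, hc⟩ := Helper1.hall_conj (G := M) _ _ hG hmn Y₁ Y₂ hY₁c hY₂c
  have hA : MulAut.conj c • TH.subgroupOf M ≤ Y₂ := by
    rw [← hc]; exact Subgroup.pointwise_smul_le_pointwise_smul_iff.mpr hY₁
  have hY₂lt : Nat.card Y₂ < Nat.card G := by
    rw [hY₂c]
    have hdvd : Nat.card M / r ^ (Nat.card M).factorization r ∣ Nat.card G :=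
      (Nat.ordCompl_dvd _ _).trans (Subgroup.card_subgroup_dvd_card M)
    have hle := Nat.le_of_dvd Nat.card_pos hdvd
    rcases lt_or_eq_of_le hle with hlt | heq
    · exact hlt
    · exfalso
      obtain ⟨i', hi'⟩ := hUp.exists_card_eq
      have hi0 : i' ≠ 0 := by
        rintro rfl
        rw [pow_zero] at hi'
        exact hUbot (Subgroup.card_eq_one.mp hi')
      have hrU : r ∣ Nat.card U := hi' ▸ dvd_pow_self r hi0
      have hrG : r ∣ Nat.card G := hrU.trans (Subgroup.card_subgroup_dvd_card U)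
      rw [← heq] at hrG
      have := Nat.coprime_ordCompl hr hM0
      exact hr.one_lt.ne' (Nat.Coprime.eq_one_of_dvd this hrG)
  have hcycAll : ∀ p : ℕ, p.Prime → ∀ P : Sylow p Y₂, IsCyclic P := by
    intro p hp P
    haveI : Fact p.Prime := ⟨hp⟩
    by_cases hpr : p = r
    · subst hpr
      obtain ⟨k, hk⟩ := P.isPGroup'.exists_card_eq
      have hdvd : p ^ k ∣ Nat.card Y₂ := hk ▸ Subgroup.card_subgroup_dvd_card (P : Subgroup Y₂)
      rw [hY₂c] at hdvd
      have hcop := Nat.Coprime.pow_left k (Nat.coprime_ordCompl hr hM0)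
      have h1 : p ^ k = 1 := Nat.Coprime.eq_one_of_dvd hcop hdvd
      rw [h1] at hk
      haveI : Subsingleton (P : Subgroup Y₂) := (Nat.card_eq_one_iff_unique.mp hk).1
      exact isCyclic_of_subsingleton
    · have hQ : IsPGroup p (((P : Subgroup Y₂).map Y₂.subtype).map M.subtype) :=
        (P.isPGroup'.map _).map _
      haveI := isCyclic_of_pgroup (hcyc p hp hpr) _ hQ
      let e1 := (P : Subgroup Y₂).equivMapOfInjective Y₂.subtype (Subgroup.subtype_injective _)
      let e2 := ((P : Subgroup Y₂).map Y₂.subtype).equivMapOfInjective M.subtype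
        (Subgroup.subtype_injective _)
      exact isCyclic_of_surjective (e1.trans e2).symm.toMonoidHom (e1.trans e2).symm.surjective
  have IH' := IH Y₂ hY₂lt (fun p hp H' K' hH' hK' hc' => by
      haveI : Fact p.Prime := ⟨hp⟩
      exact sylow_cyclic_conj (hcycAll p hp) H' K' hH' hK' hc')
    (fun p hp _ => hcycAll p hp)
  obtain ⟨y, hy⟩ := IH' ((MulAut.conj c • TH.subgroupOf M).subgroupOf Y₂)
    ((TK.subgroupOf M).subgroupOf Y₂)
    (by rw [Helper1.card_subgroupOf_of_le hA, Helper1.card_subgroupOf_of_le hY₂,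
      Helper1.card_conj_smul, Helper1.card_subgroupOf_of_le hTHM,
      Helper1.card_subgroupOf_of_le hTKM, hTHc, hTKc])
  have h3 : MulAut.conj (y : M) • (MulAut.conj c • TH.subgroupOf M) = TK.subgroupOf M :=
    Helper1.conj_of_subgroupOf hA hY₂ y hy
  rw [← mul_smul, ← map_mul] at h3
  have h4 : MulAut.conj (((y : M) * c : M) : G) • TH = TK :=
    Helper1.conj_of_subgroupOf hTHM hTKM ((y : M) * c) h3
  refine ⟨(((y : M) * c : M) : G), ?_⟩
  have hdM : (((y : M) * c : M) : G) ∈ Subgroup.normalizer ((K ⊓ U : Subgroup G) : Set G) :=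
    hMdef ▸ ((y : M) * c).2
  have hdV : MulAut.conj (((y : M) * c : M) : G) • (K ⊓ U) = K ⊓ U :=
    (Helper1.mem_normalizer_iff_conj_smul _ _).mp hdM
  have hKsup : K ≤ (K ⊓ U) ⊔ TK := by
    have hle : (K ⊓ U) ⊔ TK ≤ K := sup_le inf_le_left hTK
    have hcard : Nat.card K ≤ Nat.card ((K ⊓ U) ⊔ TK : Subgroup G) := by
      have d1 : Nat.card (K ⊓ U : Subgroup G) ∣ Nat.card ((K ⊓ U) ⊔ TK : Subgroup G) :=
        Subgroup.card_dvd_of_le le_sup_left
      have d2 : Nat.card TK ∣ Nat.card ((K ⊓ U) ⊔ TK : Subgroup G) :=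
        Subgroup.card_dvd_of_le le_sup_right
      have cop : (Nat.card (K ⊓ U : Subgroup G)).Coprime (Nat.card TK) := by
        rw [hj, hTKc]
        exact Nat.Coprime.pow_left j ((Nat.Prime.coprime_iff_not_dvd hr).mpr (hrel K))
      have d3 := Nat.Coprime.mul_dvd_of_dvd_of_dvd cop d1 d2
      rw [hTKc, hK] at d3
      exact Nat.le_of_dvd Nat.card_pos d3
    exact (Subgroup.eq_of_le_of_card_ge hle hcard).ge
  symm
  apply Subgroup.eq_of_le_of_card_ge
  · refine hKsup.trans (sup_le ?_ ?_)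
    · rw [← hdV, ← hV]
      exact Subgroup.pointwise_smul_le_pointwise_smul_iff.mpr inf_le_left
    · rw [← h4]
      exact Subgroup.pointwise_smul_le_pointwise_smul_iff.mpr hTH
  · rw [Helper1.card_conj_smul, h₁]

/-- Gross: a solvable group in which `p`-subgroups of equal order are conjugate (all `p`) and
whose Sylow subgroups are cyclic with at most one exception has all subgroups of equal order
conjugate. -/
theorem eqord_main (r : ℕ) : ∀ (n : ℕ) (G : Type u) [Group G] [Finite G] [Group.IsSolvable G],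
    Nat.card G = n →
    (∀ p : ℕ, p.Prime → ∀ H K : Subgroup G, IsPGroup p H → IsPGroup p K →
      Nat.card H = Nat.card K → ∃ g : G, MulAut.conj g • H = K) →
    (∀ p : ℕ, p.Prime → p ≠ r → ∀ P : Sylow p G, IsCyclic P) →
    ∀ H K : Subgroup G, Nat.card H = Nat.card K → ∃ g : G, MulAut.conj g • H = K := by
  intro n
  induction n using Nat.strong_induction_on with
  | _ n ih =>
    intro G _ _ _ hn hD hcyc H K h
    have IH : ∀ (G' : Type u) [Group G'] [Finite G'] [Group.IsSolvable G'],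
        Nat.card G' < Nat.card G →
        (∀ p : ℕ, p.Prime → ∀ H K : Subgroup G', IsPGroup p H → IsPGroup p K →
          Nat.card H = Nat.card K → ∃ g : G', MulAut.conj g • H = K) →
        (∀ p : ℕ, p.Prime → p ≠ r → ∀ P : Sylow p G', IsCyclic P) →
        ∀ H K : Subgroup G', Nat.card H = Nat.card K → ∃ g : G', MulAut.conj g • H = K := by
      intro G' _ _ _ hlt
      exact ih (Nat.card G') (hn ▸ hlt) G' rfl
    by_cases hex : ∃ s : ℕ, s.Prime ∧ s ≠ r ∧ pCore s G ≠ ⊥
    · obtain ⟨s, hs, hsr, hC⟩ := hex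
      exact eqord_case1 r IH hD hcyc s hs hsr hC H K h
    · push Not at hex
      by_cases hnt : Nontrivial G
      · obtain ⟨p, P, hp, hPn, hPp, hPbot⟩ := Helper1.exists_normal_pgroup (G := G)
        have hUbot : pCore p G ≠ ⊥ := fun h0 => hPbot (le_bot_iff.mp (h0 ▸ le_pCore hPn hPp))
        have hpr : p = r := by
          by_contra hne
          exact hUbot (hex p hp hne)
        subst hpr
        haveI : Fact p.Prime := ⟨hp⟩
        have hF : fittingSubgroup G = pCore p G := by
          rw [fitting_eq_iSup_pCore]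
          apply le_antisymm
          · apply iSup₂_le
            intro q hq
            by_cases hqp : q = p
            · rw [hqp]
            · rw [hex q hq hqp]; exact bot_le
          · exact le_iSup₂ (κ := fun q : ℕ => q.Prime) (f := fun q _ => pCore q G) p hp
        obtain ⟨R⟩ : Nonempty (Sylow p G) := inferInstance
        have hRU := sylow_eq_pCore_of_fitting (hD p hp) hF R
        have hidx : ¬ p ∣ (pCore p G).index := by rw [← hRU]; exact R.not_dvd_index
        exact eqord_case2 p IH hD hcyc hp (pCore p G) (isPGroup_pCore p) hUbot hidx H K h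
      · rw [not_nontrivial_iff_subsingleton] at hnt
        exact ⟨1, Subsingleton.elim _ _⟩

/-- The same statement with conjugation written as a `Subgroup.map`. -/
theorem eqord_map {G : Type u} [Group G] [Finite G] [Group.IsSolvable G]
    (hD : ∀ p : ℕ, p.Prime → ∀ H K : Subgroup G, IsPGroup p H → IsPGroup p K →
      Nat.card H = Nat.card K → ∃ g : G, K = H.map (MulAut.conj g).toMonoidHom)
    (r : ℕ) (hcyc : ∀ p : ℕ, p.Prime → p ≠ r → ∀ P : Sylow p G, IsCyclic P) :
    ∀ H K : Subgroup G, Nat.card H = Nat.card K →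
      ∃ g : G, K = H.map (MulAut.conj g).toMonoidHom := by
  intro H K h
  have hD' : ∀ p : ℕ, p.Prime → ∀ H K : Subgroup G, IsPGroup p H → IsPGroup p K →
      Nat.card H = Nat.card K → ∃ g : G, MulAut.conj g • H = K := by
    intro p hp H K hH hK hc
    obtain ⟨g, hg⟩ := hD p hp H K hH hK hc
    exact ⟨g, by rw [Helper1.conj_smul_eq_map]; exact hg.symm⟩
  obtain ⟨g, hg⟩ := eqord_main r (Nat.card G) G rfl hD' hcyc H K h
  exact ⟨g, by rw [← Helper1.conj_smul_eq_map]; exact hg.symm⟩

end Cfsg.Agent.Lib.Helper66
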