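import Cfsg.Agent.S0057
import Cfsg.Agent.Lib.Helper4.GrpAux
import Cfsg.Agent.Lib.Helper1.Hall
import Cfsg.Agent.Lib.Helper66.Cores

/-!
# Hall π-subgroups of groups with a solvable normal subgroup of π-index (helper66)

`PiNum π n` : every prime divisor of `n` lies in `π`.
`PH π H` : `H` is a Hall `π`-subgroup (`|H|` a `π`-number, `|G:H|` a `π'`-number);
`ph_iff_isPiHall : PH π H ↔ Cfsg.IsPiHall π H`.
`GoodPi π G` : Hall `π`-subgroups of `G` exist, are conjugate, and contain every `π`-subgroup.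
`goodPi_step` : if `N ⊴ G` is a `π`-group or a solvable `π'`-group, `GoodPi π (G ⧸ N) → GoodPi π G`.
`goodPi_of_solvable_normal` : if `S ⊴ G` is solvable with `|G:S|` a `π`-number then `GoodPi π G`
  (in particular for solvable `G`: Hall's theorems `E_π, C_π, D_π`).
-/

namespace Cfsg.Agent.Lib.Helper66

universe u

/-- every prime divisor of `n` lies in `π` -/
def PiNum (π : Set ℕ) (n : ℕ) : Prop := ∀ q : ℕ, q.Prime → q ∣ n → q ∈ π

lemma PiNum.of_dvd {π : Set ℕ} {a b : ℕ} (h : PiNum π b) (hab : a ∣ b) : PiNum π a :=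
  fun q hq hqa => h q hq (hqa.trans hab)

lemma PiNum.mul {π : Set ℕ} {a b : ℕ} (ha : PiNum π a) (hb : PiNum π b) : PiNum π (a * b) :=
  fun q hq hqab => (hq.dvd_mul.mp hqab).elim (ha q hq) (hb q hq)

lemma piNum_one (π : Set ℕ) : PiNum π 1 :=
  fun q hq h => absurd (Nat.dvd_one.mp h) hq.one_lt.ne'

lemma piNum_prime_pow {π : Set ℕ} {q : ℕ} (hq : q ∈ π) (hqp : q.Prime) (k : ℕ) : PiNum π (q ^ k) :=
  fun r hr h => ((Nat.prime_dvd_prime_iff_eq hr hqp).mp (hr.dvd_of_dvd_pow h)) ▸ hq

lemma PiNum.coprime {π : Set ℕ} {a b : ℕ} (ha : PiNum π a) (hb : PiNum πᶜ b) : a.Coprime b :=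
  Nat.coprime_of_dvd (fun q hq hqa hqb => hb q hq hqb (ha q hq hqa))

lemma PiNum.eq_one {π : Set ℕ} {a : ℕ} (ha : PiNum π a) (hb : PiNum πᶜ a) : a = 1 :=
  Nat.Coprime.eq_one_of_dvd (ha.coprime hb) dvd_rfl

section

variable {G : Type u} [Group G]

/-- `H` is a Hall `π`-subgroup of `G`. -/
def PH (π : Set ℕ) (H : Subgroup G) : Prop := PiNum π (Nat.card H) ∧ PiNum πᶜ H.index

lemma ph_iff_isPiHall (π : Set ℕ) (H : Subgroup G) : PH π H ↔ Cfsg.IsPiHall π H := by
  constructor
  · rintro ⟨h1, h2⟩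
    exact ⟨h1, fun q hq hqπ hdvd => h2 q hq hdvd hqπ⟩
  · rintro ⟨h1, h2⟩
    exact ⟨h1, fun q hq hdvd hqπ => h2 q hq hqπ hdvd⟩

/-- conjugation by `g` as a map on subgroups -/
abbrev cjg (g : G) (H : Subgroup G) : Subgroup G := H.map (MulAut.conj g).toMonoidHom

lemma card_cjg (g : G) (H : Subgroup G) : Nat.card (cjg g H) = Nat.card H :=
  Subgroup.card_map_of_injective (MulAut.conj g).injective

lemma index_cjg (g : G) (H : Subgroup G) : (cjg g H).index = H.index :=
  Subgroup.index_map_of_bijective (MulAut.conj g).bijective H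

lemma ph_cjg {π : Set ℕ} (g : G) {H : Subgroup G} (h : PH π H) : PH π (cjg g H) := by
  unfold PH
  rw [card_cjg, index_cjg]
  exact h

lemma cjg_cjg (g h : G) (H : Subgroup G) : cjg g (cjg h H) = cjg (g * h) H := by
  unfold cjg
  rw [Subgroup.map_map]
  congr 1
  ext x
  simp [mul_assoc]

lemma cjg_one (H : Subgroup G) : cjg 1 H = H := by
  unfold cjg
  ext x
  simp

lemma map_cjg {G' : Type*} [Group G'] (f : G →* G') (g : G) (H : Subgroup G) :
    (cjg g H).map f = cjg (f g) (H.map f) := by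
  unfold cjg
  rw [Subgroup.map_map, Subgroup.map_map]
  congr 1
  ext x
  simp

lemma le_cjg_of (n : G) {U H : Subgroup G} (h : ∀ x ∈ U, n⁻¹ * x * n ∈ H) : U ≤ cjg n H := by
  intro x hx
  refine ⟨n⁻¹ * x * n, h x hx, ?_⟩
  simp [mul_assoc]

lemma le_comap_mk (N : Subgroup G) [N.Normal] (K : Subgroup (G ⧸ N)) :
    N ≤ K.comap (QuotientGroup.mk' N) := by
  intro x hx
  rw [Subgroup.mem_comap]
  have : (QuotientGroup.mk' N) x = 1 := by
    rw [← MonoidHom.mem_ker, QuotientGroup.ker_mk']; exact hx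
  rw [this]; exact K.one_mem

lemma comap_map_mk (N : Subgroup G) [N.Normal] (H : Subgroup G) :
    (H.map (QuotientGroup.mk' N)).comap (QuotientGroup.mk' N) = H ⊔ N := by
  rw [Subgroup.comap_map_eq, QuotientGroup.ker_mk']

lemma dedekind_normal {N H V : Subgroup G} [N.Normal] (hNV : N ≤ V) (hV : V ≤ N ⊔ H) :
    V = N ⊔ (V ⊓ H) := by
  apply le_antisymm
  · intro x hx
    have hx' : x ∈ ((N ⊔ H : Subgroup G) : Set G) := hV hx
    rw [Subgroup.normal_mul] at hx'
    obtain ⟨n, hn, h, hh, rfl⟩ := Set.mem_mul.mp hx'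
    have hhV : h ∈ V := by
      have : h = n⁻¹ * (n * h) := by group
      rw [this]
      exact V.mul_mem (V.inv_mem (hNV hn)) hx
    exact Subgroup.mul_mem _ (Subgroup.mem_sup_left hn) (Subgroup.mem_sup_right ⟨hhV, hh⟩)
  · exact sup_le hNV inf_le_left

lemma card_map_mk_dvd (N : Subgroup G) [N.Normal] (U : Subgroup G) :
    Nat.card (U.map (QuotientGroup.mk' N)) ∣ Nat.card U :=
  Subgroup.card_dvd_of_surjective ((QuotientGroup.mk' N).subgroupMap U)
    ((QuotientGroup.mk' N).subgroupMap_surjective U)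

variable [Finite G]

lemma ph_card_eq {π : Set ℕ} {H₁ H₂ : Subgroup G} (h₁ : PH π H₁) (h₂ : PH π H₂) :
    Nat.card H₁ = Nat.card H₂ := by
  obtain ⟨c₁, i₁⟩ := h₁
  obtain ⟨c₂, i₂⟩ := h₂
  have e₁ := Subgroup.card_mul_index H₁
  have e₂ := Subgroup.card_mul_index H₂
  apply Nat.dvd_antisymm
  · have : Nat.card H₁ ∣ Nat.card H₂ * H₂.index := by rw [e₂, ← e₁]; exact dvd_mul_right _ _
    exact (c₁.coprime i₂).dvd_of_dvd_mul_right this
  · have : Nat.card H₂ ∣ Nat.card H₁ * H₁.index := by rw [e₁, ← e₂]; exact dvd_mul_right _ _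
    exact (c₂.coprime i₁).dvd_of_dvd_mul_right this

lemma ph_map {π : Set ℕ} (N : Subgroup G) [N.Normal] {H : Subgroup G} (h : PH π H) :
    PH π (H.map (QuotientGroup.mk' N)) :=
  ⟨h.1.of_dvd (card_map_mk_dvd N H),
    h.2.of_dvd (Subgroup.index_map_dvd H (QuotientGroup.mk'_surjective N))⟩

lemma card_comap_mk (N : Subgroup G) [N.Normal] (K : Subgroup (G ⧸ N)) :
    Nat.card (K.comap (QuotientGroup.mk' N)) = Nat.card N * Nat.card K := by
  have h1 := Subgroup.card_mul_index (K.comap (QuotientGroup.mk' N))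
  rw [Subgroup.index_comap_of_surjective K (QuotientGroup.mk'_surjective N)] at h1
  have h2 := Subgroup.card_mul_index K
  have h3 := Subgroup.card_eq_card_quotient_mul_card_subgroup N
  have hpos : 0 < K.index := Nat.pos_of_ne_zero Subgroup.index_ne_zero_of_finite
  apply Nat.eq_of_mul_eq_mul_right hpos
  rw [h1, h3, ← h2]
  ring

lemma card_sup_of_coprime {U N : Subgroup G} [N.Normal]
    (h : (Nat.card U).Coprime (Nat.card N)) :
    Nat.card (U ⊔ N : Subgroup G) = Nat.card U * Nat.card N := by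
  have h1 := Cfsg.Agent.Lib.Helper4.card_sup_mul_card_inf U N Subgroup.le_normalizer_of_normal
  rw [(Subgroup.disjoint_of_coprime_natCard h).eq_bot, Subgroup.card_bot, mul_one] at h1
  exact h1

lemma card_sup_dvd_mul (U N : Subgroup G) [N.Normal] :
    Nat.card (U ⊔ N : Subgroup G) ∣ Nat.card U * Nat.card N :=
  Dvd.intro _ (Cfsg.Agent.Lib.Helper4.card_sup_mul_card_inf U N Subgroup.le_normalizer_of_normal)

end

/-- Hall `π`-subgroups exist, are conjugate, and dominate `π`-subgroups. -/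
def GoodPi (π : Set ℕ) (G : Type u) [Group G] : Prop :=
  (∃ H : Subgroup G, PH π H) ∧
  (∀ H₁ H₂ : Subgroup G, PH π H₁ → PH π H₂ → ∃ g : G, H₂ = cjg g H₁) ∧
  (∀ U : Subgroup G, PiNum π (Nat.card U) → ∃ H : Subgroup G, PH π H ∧ U ≤ H)

lemma goodPi_of_subsingleton (π : Set ℕ) (G : Type u) [Group G] [Finite G] (h : Subsingleton G) :
    GoodPi π G := by
  have hsub : Subsingleton (Subgroup G) := inferInstance
  have htop : PH π (⊤ : Subgroup G) := by
    refine ⟨?_, ?_⟩
    · rw [Subgroup.card_top, Nat.card_of_subsingleton (1 : G)]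
      exact piNum_one π
    · rw [Subgroup.index_top]
      exact piNum_one _
  exact ⟨⟨⊤, htop⟩, fun H₁ H₂ _ _ => ⟨1, Subsingleton.elim _ _⟩, fun U _ => ⟨⊤, htop, le_top⟩⟩

section step

variable {G : Type u} [Group G] [Finite G] {π : Set ℕ}

/-- lifting a Hall `π`-subgroup through a normal `π'`-subgroup -/
lemma lift_hall (N : Subgroup G) [N.Normal] (hN : PiNum πᶜ (Nat.card N))
    (K : Subgroup (G ⧸ N)) (hK : PH π K) :
    ∃ H : Subgroup G, PH π H ∧ N ⊔ H = K.comap (QuotientGroup.mk' N) := by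
  obtain ⟨cK, iK⟩ := hK
  set K₁ : Subgroup G := K.comap (QuotientGroup.mk' N) with hK₁
  have hNK₁ : N ≤ K₁ := le_comap_mk N K
  have hcardK₁ : Nat.card K₁ = Nat.card N * Nat.card K := card_comap_mk N K
  have hcardN₁ : Nat.card (N.subgroupOf K₁) = Nat.card N :=
    Nat.card_congr (Subgroup.subgroupOfEquivOfLe hNK₁).toEquiv
  have hidx : (N.subgroupOf K₁).index = Nat.card K := by
    have h1 := Subgroup.card_mul_index (N.subgroupOf K₁)
    rw [hcardN₁, hcardK₁] at h1
    exact Nat.eq_of_mul_eq_mul_left Nat.card_pos h1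
  have hcop : Nat.Coprime (Nat.card (N.subgroupOf K₁)) (N.subgroupOf K₁).index := by
    rw [hcardN₁, hidx]
    exact (cK.coprime hN).symm
  obtain ⟨H₀, hH₀⟩ := Subgroup.exists_right_complement'_of_coprime hcop
  have hcardH₀ : Nat.card H₀ = Nat.card K := by
    have h1 := hH₀.card_mul_card
    rw [hcardN₁, hcardK₁] at h1
    exact Nat.eq_of_mul_eq_mul_left Nat.card_pos h1
  set H : Subgroup G := H₀.map K₁.subtype with hH
  have hcardH : Nat.card H = Nat.card K := by
    rw [hH, Subgroup.card_map_of_injective K₁.subtype_injective, hcardH₀]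
  have hHK₁ : H ≤ K₁ := Subgroup.map_subtype_le _
  have hcopHN : (Nat.card H).Coprime (Nat.card N) := by
    rw [hcardH]; exact cK.coprime hN
  refine ⟨H, ⟨by rw [hcardH]; exact cK, ?_⟩, ?_⟩
  · have h1 := Subgroup.card_mul_index H
    have h2 := Subgroup.card_mul_index K₁
    rw [Subgroup.index_comap_of_surjective K (QuotientGroup.mk'_surjective N), hcardK₁] at h2
    rw [hcardH, ← h2] at h1
    have h3 : H.index = Nat.card N * K.index := by
      apply Nat.eq_of_mul_eq_mul_left (Nat.card_pos (α := K))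
      rw [h1]; ring
    rw [h3]
    exact hN.mul iK
  · apply Subgroup.eq_of_le_of_card_ge (sup_le hNK₁ hHK₁)
    rw [sup_comm, card_sup_of_coprime hcopHN, hcardK₁, hcardH, mul_comm]

/-- a `π`-subgroup of `N ⊔ H` (`N` a normal solvable `π'`-subgroup, `H` a `π`-group) is
`N`-conjugate into `H` -/
lemma conj_into_hall (N : Subgroup G) [N.Normal] (hN : PiNum πᶜ (Nat.card N))
    (hsolv : Group.IsSolvable N)
    (H U : Subgroup G) (hH : PiNum π (Nat.card H)) (hU : PiNum π (Nat.card U))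
    (hUH : U ≤ N ⊔ H) : ∃ n ∈ N, U ≤ cjg n H := by
  have hUN : (Nat.card U).Coprime (Nat.card N) := hU.coprime hN
  set HU : Subgroup G := (U ⊔ N) ⊓ H with hHU
  have hHUcop : PiNum π (Nat.card HU) := hH.of_dvd (Subgroup.card_dvd_of_le inf_le_right)
  have hHUN : (Nat.card HU).Coprime (Nat.card N) := hHUcop.coprime hN
  have hded : U ⊔ N = N ⊔ HU := dedekind_normal le_sup_right (sup_le hUH le_sup_left)
  have hcard : Nat.card U = Nat.card HU := by
    have h1 := card_sup_of_coprime hUN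
    have h2 := card_sup_of_coprime hHUN
    rw [hded, sup_comm, h2] at h1
    exact (Nat.eq_of_mul_eq_mul_right Nat.card_pos h1).symm
  obtain ⟨n, hn, hconj⟩ := Cfsg.Agent.S0057.sup_conj (N := N) (A := HU) (B := U)
    Subgroup.le_normalizer_of_normal hHUN (Or.inr hsolv) (by rw [← hded]; exact le_sup_left) hcard
  exact ⟨n, hn, le_cjg_of n (fun x hx => (hconj x hx).2)⟩

theorem goodPi_step (N : Subgroup G) [N.Normal]
    (hN : PiNum π (Nat.card N) ∨ (Group.IsSolvable N ∧ PiNum πᶜ (Nat.card N)))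
    (ih : GoodPi π (G ⧸ N)) : GoodPi π G := by
  obtain ⟨⟨K, hK⟩, hconjQ, hcontQ⟩ := ih
  have hlift : ∀ H₁ H₂ : Subgroup G, PH π H₁ → PH π H₂ → ∃ g : G, cjg g H₁ ⊔ N = H₂ ⊔ N := by
    intro H₁ H₂ h₁ h₂
    obtain ⟨gb, hgb⟩ := hconjQ _ _ (ph_map N h₁) (ph_map N h₂)
    obtain ⟨g, rfl⟩ := QuotientGroup.mk'_surjective N gb
    refine ⟨g, ?_⟩
    rw [← comap_map_mk, ← comap_map_mk, map_cjg, hgb]
  rcases hN with hNπ | ⟨hsolv, hNπ'⟩
  · -- `N` a `π`-group
    have hNle : ∀ H : Subgroup G, PH π H → N ≤ H := by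
      intro H hH
      obtain ⟨c, i⟩ := hH
      have h2 : PiNum π (Nat.card (H ⊔ N : Subgroup G)) := (c.mul hNπ).of_dvd (card_sup_dvd_mul H N)
      have h3 : PiNum πᶜ (H.relIndex (H ⊔ N)) :=
        i.of_dvd (Subgroup.relIndex_dvd_index_of_le le_sup_left)
      have h4 : PiNum π (H.relIndex (H ⊔ N)) := h2.of_dvd (Subgroup.relIndex_dvd_card _ _)
      exact le_sup_right.trans (Subgroup.relIndex_eq_one.mp (h4.eq_one h3))
    have hcomapPH : ∀ Kb : Subgroup (G ⧸ N), PH π Kb → PH π (Kb.comap (QuotientGroup.mk' N)) := by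
      intro Kb hKb
      obtain ⟨c, i⟩ := hKb
      refine ⟨?_, ?_⟩
      · rw [card_comap_mk]
        exact hNπ.mul c
      · rw [Subgroup.index_comap_of_surjective Kb (QuotientGroup.mk'_surjective N)]
        exact i
    refine ⟨⟨_, hcomapPH K hK⟩, ?_, ?_⟩
    · intro H₁ H₂ h₁ h₂
      obtain ⟨g, hg⟩ := hlift H₁ H₂ h₁ h₂
      refine ⟨g, ?_⟩
      rw [sup_eq_left.mpr (hNle _ (ph_cjg g h₁)), sup_eq_left.mpr (hNle _ h₂)] at hg
      exact hg.symm
    · intro U hU
      obtain ⟨Kb, hKb, hUKb⟩ := hcontQ _ (hU.of_dvd (card_map_mk_dvd N U))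
      exact ⟨_, hcomapPH Kb hKb, (Subgroup.map_le_iff_le_comap).mp hUKb⟩
  · -- `N` a solvable `π'`-group
    refine ⟨?_, ?_, ?_⟩
    · obtain ⟨H, hH, -⟩ := lift_hall N hNπ' K hK
      exact ⟨H, hH⟩
    · intro H₁ H₂ h₁ h₂
      obtain ⟨g, hg⟩ := hlift H₁ H₂ h₁ h₂
      have hB : cjg g H₁ ≤ N ⊔ H₂ := by
        rw [sup_comm, ← hg]; exact le_sup_left
      have hcard : Nat.card (cjg g H₁) = Nat.card H₂ := by rw [card_cjg]; exact ph_card_eq h₁ h₂
      have hcopN : (Nat.card H₂).Coprime (Nat.card N) := h₂.1.coprime hNπ'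
      obtain ⟨n, hn, hconj⟩ := Cfsg.Agent.S0057.sup_conj (N := N) (A := H₂) (B := cjg g H₁)
        Subgroup.le_normalizer_of_normal hcopN (Or.inr hsolv) hB hcard
      have hle : cjg g H₁ ≤ cjg n H₂ := le_cjg_of n hconj
      have heq : cjg g H₁ = cjg n H₂ :=
        Subgroup.eq_of_le_of_card_ge hle (by rw [card_cjg, hcard])
      refine ⟨n⁻¹ * g, ?_⟩
      rw [← cjg_cjg, heq, cjg_cjg, inv_mul_cancel, cjg_one]
    · intro U hU
      obtain ⟨Kb, hKb, hUKb⟩ := hcontQ _ (hU.of_dvd (card_map_mk_dvd N U))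
      obtain ⟨H, hH, hHK⟩ := lift_hall N hNπ' Kb hKb
      have hUH : U ≤ N ⊔ H := by
        rw [hHK]
        exact (Subgroup.map_le_iff_le_comap).mp hUKb
      obtain ⟨n, -, hn⟩ := conj_into_hall N hNπ' hsolv H U hH.1 hU hUH
      exact ⟨cjg n H, ph_cjg n hH, hn⟩

end step

theorem goodPi_of_solvable_normal_aux (π : Set ℕ) : ∀ (n : ℕ) (G : Type u) [Group G] [Finite G]
    (S : Subgroup G) [S.Normal], Nat.card G ≤ n → Group.IsSolvable S → PiNum π S.index →
    GoodPi π G := by
  intro n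
  induction n with
  | zero =>
    intro G _ _ S _ hn
    have := Nat.card_pos (α := G)
    omega
  | succ n ih =>
    intro G _ _ S _ hn hsolv hidx
    by_cases hS : S = ⊥
    · have hG : PiNum π (Nat.card G) := by
        rw [hS, Subgroup.index_bot] at hidx; exact hidx
      have h1 : GoodPi π (G ⧸ (⊤ : Subgroup G)) :=
        goodPi_of_subsingleton π _ QuotientGroup.subsingleton_quotient_top
      exact goodPi_step (⊤ : Subgroup G) (Or.inl (by rw [Subgroup.card_top]; exact hG)) h1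
    · haveI : Nontrivial S := (Subgroup.nontrivial_iff_ne_bot S).mpr hS
      haveI := hsolv
      obtain ⟨q, P₀, hq, hP₀n, hP₀q, hP₀1⟩ := Cfsg.Agent.Lib.Helper1.exists_normal_pgroup (G := S)
      haveI : Fact q.Prime := ⟨hq⟩
      set N : Subgroup G := (Cfsg.pCore q ↥S).map S.subtype with hNdef
      haveI hNn : N.Normal := by
        haveI : (Cfsg.pCore q ↥S).Characteristic := by rw [pCore_eq_piCore]; infer_instance
        exact ConjAct.normal_of_characteristic_of_normal
      have hNne : N ≠ ⊥ := by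
        intro h
        have h1 : Cfsg.pCore q ↥S = ⊥ :=
          (Subgroup.map_eq_bot_iff_of_injective _ S.subtype_injective).mp h
        have h2 : P₀ ≤ Cfsg.pCore q ↥S := le_pCore hP₀n hP₀q
        rw [h1, le_bot_iff] at h2
        exact hP₀1 h2
      have hNq : IsPGroup q N := (isPGroup_pCore (G := ↥S) q).map S.subtype
      obtain ⟨k, hk⟩ := (IsPGroup.iff_card (p := q)).mp hNq
      have hSbar_solv : Group.IsSolvable (S.map (QuotientGroup.mk' N)) :=
        Group.isSolvable_of_surjective ((QuotientGroup.mk' N).subgroupMap_surjective S)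
      have hSbar_idx : PiNum π (S.map (QuotientGroup.mk' N)).index :=
        hidx.of_dvd (Subgroup.index_map_dvd S (QuotientGroup.mk'_surjective N))
      haveI : (S.map (QuotientGroup.mk' N)).Normal :=
        Subgroup.Normal.map inferInstance _ (QuotientGroup.mk'_surjective N)
      have hcardlt : Nat.card (G ⧸ N) ≤ n := by
        have h3 := Subgroup.card_eq_card_quotient_mul_card_subgroup N
        have h4 : 1 < Nat.card N := by
          rcases Nat.lt_trichotomy (Nat.card N) 1 with h | h | h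
          · have := Nat.card_pos (α := N); omega
          · exact absurd (Subgroup.card_eq_one.mp h) hNne
          · exact h
        have h5 : 0 < Nat.card (G ⧸ N) := Nat.card_pos
        nlinarith
      have ihq := ih (G ⧸ N) (S.map (QuotientGroup.mk' N)) hcardlt hSbar_solv hSbar_idx
      apply goodPi_step N _ ihq
      by_cases hqπ : q ∈ π
      · left; rw [hk]; exact piNum_prime_pow hqπ hq k
      · right
        refine ⟨?_, by rw [hk]; exact piNum_prime_pow (show q ∈ πᶜ from hqπ) hq k⟩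
        haveI : Group.IsNilpotent N := hNq.isNilpotent
        infer_instance

/-- If `S ⊴ G` is solvable and `|G : S|` is a `π`-number, then Hall `π`-subgroups of `G` exist,
are conjugate and dominate the `π`-subgroups (no Feit–Thompson needed). -/
theorem goodPi_of_solvable_normal (π : Set ℕ) (G : Type u) [Group G] [Finite G]
    (S : Subgroup G) [S.Normal] (hsolv : Group.IsSolvable S) (hidx : PiNum π S.index) :
    GoodPi π G :=
  goodPi_of_solvable_normal_aux π _ G S le_rfl hsolv hidx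

/-- Hall's theorems for a finite solvable group. -/
theorem goodPi_of_solvable (π : Set ℕ) (G : Type u) [Group G] [Finite G] [Group.IsSolvable G] :
    GoodPi π G :=
  goodPi_of_solvable_normal π G ⊤ inferInstance (by rw [Subgroup.index_top]; exact piNum_one π)

end Cfsg.Agent.Lib.Helper66
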