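import Mathlib
import Cfsg.Agent.S4127
import Cfsg.Agent.S4134

set_option autoImplicit false

namespace Cfsg.Agent.Lib.Helper66.SqfNil

open Cfsg.Agent

/-- commuting pairs (p-element, p'-element) -/
def PairSet (p : ℕ) (G : Type*) [Group G] : Set (G × G) :=
  {vy | (∃ k : ℕ, vy.1 ^ (p ^ k) = 1) ∧ (orderOf vy.2).Coprime p ∧ vy.1 * vy.2 = vy.2 * vy.1}

/-- commuting pairs (nontrivial p-element, p'-element) -/
def PairSet' (p : ℕ) (G : Type*) [Group G] : Set (G × G) :=
  {vy | ((∃ k : ℕ, vy.1 ^ (p ^ k) = 1) ∧ vy.1 ≠ 1) ∧ (orderOf vy.2).Coprime p ∧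
    vy.1 * vy.2 = vy.2 * vy.1}

/-- commuting pairs (nontrivial p-element, element) -/
def WSet (p : ℕ) (G : Type*) [Group G] : Set (G × G) :=
  {vc | ((∃ k : ℕ, vc.1 ^ (p ^ k) = 1) ∧ vc.1 ≠ 1) ∧ vc.1 * vc.2 = vc.2 * vc.1}

theorem coprime_of_pow_eq_one {G : Type*} [Group G] (p r : ℕ) (hp : p.Prime) (hr : r.Prime)
    (hne : r ≠ p) (g : G) (j : ℕ) (hg : g ^ (r ^ j) = 1) : (orderOf g).Coprime p := by
  have h1 : orderOf g ∣ r ^ j := orderOf_dvd_of_pow_eq_one hg
  have h2 : (r ^ j).Coprime p := Nat.Coprime.pow_left _ ((Nat.coprime_primes hr hp).mpr hne)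
  exact Nat.Coprime.coprime_dvd_left h1 h2

theorem eq_one_of_coprime_of_pow {G : Type*} [Group G] (p : ℕ) (g : G) (k : ℕ)
    (hg : g ^ (p ^ k) = 1) (hc : (orderOf g).Coprime p) : g = 1 := by
  have h1 : orderOf g ∣ p ^ k := orderOf_dvd_of_pow_eq_one hg
  have h2 : (orderOf g).Coprime (p ^ k) := Nat.Coprime.pow_right _ hc
  exact orderOf_eq_one_iff.mp (Nat.Coprime.eq_one_of_dvd h2 h1)

/-- a subgroup containing all p'-elements has p-power index -/
theorem index_eq_pow {G : Type*} [Group G] [Finite G] (p : ℕ) [hp : Fact p.Prime] (K : Subgroup G)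
    (hK : ∀ g : G, (orderOf g).Coprime p → g ∈ K) : ∃ k : ℕ, K.index = p ^ k := by
  refine ⟨_, Nat.eq_prime_pow_of_unique_prime_dvd Subgroup.index_ne_zero_of_finite ?_⟩
  intro r hr hrd
  by_contra hne
  have : Fact r.Prime := ⟨hr⟩
  obtain ⟨R⟩ : Nonempty (Sylow r G) := inferInstance
  have hRK : (R : Subgroup G) ≤ K := by
    intro g hg
    apply hK
    obtain ⟨j, hj⟩ := R.isPGroup' ⟨g, hg⟩
    have hj' : g ^ (r ^ j) = 1 := by simpa using congrArg Subtype.val hj
    exact coprime_of_pow_eq_one p r hp.1 hr hne g j hj'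
  have h1 : Nat.card (R : Subgroup G) ∣ Nat.card K := Subgroup.card_dvd_of_le hRK
  have h2 : Nat.card K * K.index = Nat.card G := Subgroup.card_mul_index K
  have h3 : Nat.card (R : Subgroup G) = r ^ (Nat.card G).factorization r :=
    Sylow.card_eq_multiplicity R
  have h4 : r ^ ((Nat.card G).factorization r + 1) ∣ Nat.card G := by
    rw [pow_succ, ← h3, ← h2]
    exact Nat.mul_dvd_mul h1 hrd
  exact Nat.pow_succ_factorization_not_dvd Nat.card_pos.ne' hr h4

/-- a p-subgroup of the centralizer of `y` of order at least `p^(a-1)` -/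
theorem exists_pelts_commuting {G : Type*} [Group G] [Finite G] (p : ℕ) [hp : Fact p.Prime] (y : G)
    (hy : ¬ p ^ 2 ∣ (Subgroup.centralizer ({y} : Set G)).index) :
    ∃ T : Subgroup G, IsPGroup p T ∧ T ≤ Subgroup.centralizer {y} ∧
      p ^ ((Nat.card G).factorization p - 1) ∣ Nat.card T := by
  set C := Subgroup.centralizer ({y} : Set G) with hC
  obtain ⟨T0⟩ : Nonempty (Sylow p C) := inferInstance
  refine ⟨(T0 : Subgroup C).map C.subtype, T0.isPGroup'.map _, Subgroup.map_subtype_le _, ?_⟩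
  rw [Subgroup.card_subtype, Sylow.card_eq_multiplicity T0]
  apply pow_dvd_pow
  have h2 : Nat.card C * C.index = Nat.card G := Subgroup.card_mul_index C
  have hi : C.index ≠ 0 := Subgroup.index_ne_zero_of_finite
  have hc : Nat.card C ≠ 0 := Nat.card_pos.ne'
  have h3 : (Nat.card G).factorization p = (Nat.card C).factorization p + C.index.factorization p := by
    rw [← h2, Nat.factorization_mul hc hi]; rfl
  have h4 : C.index.factorization p ≤ 1 := by
    by_contra hlt
    push Not at hlt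
    exact hy ((hp.1.pow_dvd_iff_le_factorization hi).mpr hlt)
  omega

/-- lower bound for the number of commuting pairs -/
theorem card_pairs_ge {G : Type*} [Group G] [Finite G] (p : ℕ) [hp : Fact p.Prime]
    (h : ∀ y : G, (orderOf y).Coprime p → ¬ p ^ 2 ∣ (Subgroup.centralizer ({y} : Set G)).index) :
    Nat.card {y : G // (orderOf y).Coprime p} * p ^ ((Nat.card G).factorization p - 1) ≤
      Nat.card (PairSet p G) := by
  classical
  set c := p ^ ((Nat.card G).factorization p - 1) with hc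
  have hcpos : 0 < c := pow_pos hp.1.pos _
  have key : ∀ y : {y : G // (orderOf y).Coprime p}, ∃ e : Fin c → G, Function.Injective e ∧
      ∀ i, (∃ k : ℕ, (e i) ^ (p ^ k) = 1) ∧ e i * (y : G) = (y : G) * e i := by
    intro y
    obtain ⟨T, hT, hTC, hTc⟩ := exists_pelts_commuting p (y : G) (h y y.2)
    have hle : c ≤ Nat.card T := Nat.le_of_dvd Nat.card_pos hTc
    haveI : Fintype T := Fintype.ofFinite T
    have hle' : Fintype.card (Fin c) ≤ Fintype.card T := by
      rw [Fintype.card_fin, ← Nat.card_eq_fintype_card]; exact hle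
    obtain ⟨f⟩ := Function.Embedding.nonempty_of_card_le hle'
    refine ⟨fun i => (f i : G), fun i j hij => f.injective (Subtype.ext hij), fun i => ⟨?_, ?_⟩⟩
    · obtain ⟨k, hk⟩ := hT (f i)
      exact ⟨k, by simpa using congrArg Subtype.val hk⟩
    · have := hTC (f i).2
      rw [Subgroup.mem_centralizer_iff] at this
      exact (this (y : G) rfl).symm
  choose e he1 he2 using key
  let Φ : {y : G // (orderOf y).Coprime p} × Fin c → PairSet p G := fun yi =>
    ⟨(e yi.1 yi.2, (yi.1 : G)), (he2 yi.1 yi.2).1, yi.1.2, (he2 yi.1 yi.2).2⟩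
  have hΦ : Function.Injective Φ := by
    rintro ⟨y, i⟩ ⟨y', i'⟩ hyy
    have h1 : (Φ (y, i)).1 = (Φ (y', i')).1 := congrArg Subtype.val hyy
    have h2 : (y : G) = (y' : G) := congrArg Prod.snd h1
    have h3 : y = y' := Subtype.ext h2
    subst h3
    have h4 : e y i = e y i' := congrArg Prod.fst h1
    rw [he1 y h4]
  have := Nat.card_le_card_of_injective Φ hΦ
  rwa [Nat.card_prod, Nat.card_fin] at this

/-- splitting off the pairs with trivial p-part -/
theorem card_pairs_split {G : Type*} [Group G] [Finite G] (p : ℕ) :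
    Nat.card (PairSet p G) = Nat.card {y : G // (orderOf y).Coprime p} + Nat.card (PairSet' p G) := by
  classical
  let f : {y : G // (orderOf y).Coprime p} ⊕ PairSet' p G → PairSet p G := fun s =>
    match s with
    | Sum.inl y => ⟨(1, (y : G)), ⟨0, by simp⟩, y.2, by simp⟩
    | Sum.inr vy => ⟨vy.1, vy.2.1.1, vy.2.2.1, vy.2.2.2⟩
  have hf : Function.Bijective f := by
    constructor
    · rintro (y | vy) (y' | vy') hh
      · have h1 : (f (Sum.inl y)).1 = (f (Sum.inl y')).1 := congrArg Subtype.val hh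
        have h2 : (y : G) = y' := congrArg Prod.snd h1
        exact congrArg Sum.inl (Subtype.ext h2)
      · exfalso
        have h1 : (f (Sum.inl y)).1 = (f (Sum.inr vy')).1 := congrArg Subtype.val hh
        exact vy'.2.1.2 (congrArg Prod.fst h1).symm
      · exfalso
        have h1 : (f (Sum.inr vy)).1 = (f (Sum.inl y')).1 := congrArg Subtype.val hh
        exact vy.2.1.2 (congrArg Prod.fst h1)
      · have h1 : (f (Sum.inr vy)).1 = (f (Sum.inr vy')).1 := congrArg Subtype.val hh
        exact congrArg Sum.inr (Subtype.ext h1)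
    · rintro ⟨⟨v, y⟩, hv, hy, hvy⟩
      by_cases h1 : v = 1
      · subst h1
        exact ⟨Sum.inl ⟨y, hy⟩, rfl⟩
      · exact ⟨Sum.inr ⟨(v, y), ⟨hv, h1⟩, hy, hvy⟩, rfl⟩
  rw [← Nat.card_congr (Equiv.ofBijective f hf), Nat.card_sum]

end Cfsg.Agent.Lib.Helper66.SqfNil
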