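import Mathlib
import Cfsg.Agent.S4127
import Cfsg.Agent.S4134
import Cfsg.Agent.Lib.Helper66.SqfNilA

set_option autoImplicit false

namespace Cfsg.Agent.Lib.Helper66.SqfNil

open Cfsg.Agent

/-- an enumeration of a Sylow subgroup containing a given p-element -/
theorem exists_sylow_enum {G : Type*} [Group G] [Finite G] (p : ℕ) [hp : Fact p.Prime]
    (hab : ∀ Q : Subgroup G, IsPGroup p Q → ∀ a ∈ Q, ∀ b ∈ Q, a * b = b * a)
    (v : G) (hv : ∃ k : ℕ, v ^ (p ^ k) = 1) :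
    ∃ e : Fin (p ^ ((Nat.card G).factorization p)) → G, Function.Injective e ∧
      (∀ i, v * e i = e i * v) ∧ ∀ i j, ∃ k : ℕ, (e i * (e j)⁻¹) ^ (p ^ k) = 1 := by
  classical
  obtain ⟨k, hk⟩ := hv
  have hz : IsPGroup p (Subgroup.zpowers v) := by
    rintro ⟨g, hg⟩
    obtain ⟨n, rfl⟩ := Subgroup.mem_zpowers_iff.mp hg
    refine ⟨k, Subtype.ext ?_⟩
    show (v ^ n) ^ (p ^ k) = 1
    rw [← zpow_natCast, ← zpow_mul, mul_comm, zpow_mul, zpow_natCast, hk, one_zpow]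
  obtain ⟨P, hP⟩ := hz.exists_le_sylow
  have hvP : v ∈ P := hP (Subgroup.mem_zpowers v)
  have hcard : Nat.card (P : Subgroup G) = p ^ (Nat.card G).factorization p :=
    Sylow.card_eq_multiplicity P
  have : Fintype (P : Subgroup G) := Fintype.ofFinite _
  have hle' : Fintype.card (Fin (p ^ (Nat.card G).factorization p)) ≤
      Fintype.card (P : Subgroup G) := by
    rw [Fintype.card_fin, ← Nat.card_eq_fintype_card, hcard]
  obtain ⟨f⟩ := Function.Embedding.nonempty_of_card_le hle'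
  refine ⟨fun i => (f i : G), fun i j hij => f.injective (Subtype.ext hij), fun i => ?_,
    fun i j => ?_⟩
  · exact hab P P.isPGroup' v hvP _ (f i).2
  · obtain ⟨k', hk'⟩ := P.isPGroup' (f i * (f j)⁻¹)
    exact ⟨k', by simpa using congrArg Subtype.val hk'⟩

/-- upper bound for the nontrivial commuting pairs -/
theorem card_pairs'_le {G : Type*} [Group G] [Finite G] (p : ℕ) [hp : Fact p.Prime]
    (hab : ∀ Q : Subgroup G, IsPGroup p Q → ∀ a ∈ Q, ∀ b ∈ Q, a * b = b * a)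
    (hK : ∀ v : G, (∃ k : ℕ, v ^ (p ^ k) = 1) → v ≠ 1 → ∀ y z : G, (orderOf y).Coprime p →
      (orderOf z).Coprime p → v * y = y * v → v * z = z * v → (orderOf (y⁻¹ * z)).Coprime p) :
    Nat.card (PairSet' p G) * p ^ ((Nat.card G).factorization p) ≤ Nat.card (WSet p G) := by
  classical
  -- the enumeration must depend only on v
  have key2 : ∀ v : G, ∃ e : Fin (p ^ ((Nat.card G).factorization p)) → G,
      (∃ k : ℕ, v ^ (p ^ k) = 1) → (Function.Injective e ∧ (∀ i, v * e i = e i * v) ∧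
      ∀ i j, ∃ k : ℕ, (e i * (e j)⁻¹) ^ (p ^ k) = 1) := by
    intro v
    by_cases hv : ∃ k : ℕ, v ^ (p ^ k) = 1
    · obtain ⟨e, he⟩ := exists_sylow_enum p hab v hv
      exact ⟨e, fun _ => he⟩
    · exact ⟨fun _ => 1, fun h => absurd h hv⟩
  choose e he using key2
  let Φ : PairSet' p G × Fin (p ^ ((Nat.card G).factorization p)) → WSet p G := fun vyi =>
    ⟨((vyi.1 : G × G).1, (vyi.1 : G × G).2 * e (vyi.1 : G × G).1 vyi.2), vyi.1.2.1, by
      have h1 := (he (vyi.1 : G × G).1 vyi.1.2.1.1).2.1 vyi.2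
      have h2 := vyi.1.2.2.2
      show (vyi.1 : G × G).1 * ((vyi.1 : G × G).2 * e (vyi.1 : G × G).1 vyi.2) =
        ((vyi.1 : G × G).2 * e (vyi.1 : G × G).1 vyi.2) * (vyi.1 : G × G).1
      rw [← mul_assoc, h2, mul_assoc, h1, mul_assoc]⟩
  have hΦ : Function.Injective Φ := by
    rintro ⟨⟨⟨v, y⟩, hv, hy, hvy⟩, i⟩ ⟨⟨⟨v', y'⟩, hv', hy', hvy'⟩, i'⟩ hh
    have h1 : (Φ (⟨(v, y), hv, hy, hvy⟩, i)).1 = (Φ (⟨(v', y'), hv', hy', hvy'⟩, i')).1 :=
      congrArg Subtype.val hh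
    have h2 : v = v' := congrArg Prod.fst h1
    subst h2
    have h3 : y * e v i = y' * e v i' := congrArg Prod.snd h1
    have h4 : y'⁻¹ * y = e v i' * (e v i)⁻¹ := by
      rw [eq_mul_inv_iff_mul_eq, mul_assoc, h3, inv_mul_cancel_left]
    have h5 : (orderOf (y'⁻¹ * y)).Coprime p := hK v hv.1 hv.2 y' y hy' hy hvy' hvy
    obtain ⟨k, hk⟩ := (he v hv.1).2.2 i' i
    rw [← h4] at hk
    have h6 : y'⁻¹ * y = 1 := eq_one_of_coprime_of_pow p _ k hk h5
    have h7 : y = y' := by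
      rw [inv_mul_eq_one] at h6; exact h6.symm
    subst h7
    have h8 : e v i = e v i' := mul_left_cancel h3
    have h9 : i = i' := (he v hv.1).1 h8
    subst h9
    rfl
  have := Nat.card_le_card_of_injective Φ hΦ
  rwa [Nat.card_prod, Nat.card_fin] at this

end Cfsg.Agent.Lib.Helper66.SqfNil
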