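import Mathlib
import Cfsg.Agent.S4127
import Cfsg.Agent.S4134
import Cfsg.Agent.Lib.Helper66.SqfNilB

set_option autoImplicit false

namespace Cfsg.Agent.Lib.Helper66.SqfNil

open Cfsg.Agent

/-- the orbit of `u0` under a subgroup acting by conjugation -/
def OrbSet {G : Type*} [Group G] (N : Subgroup G) (u0 : G) : Set G :=
  {u | ∃ n ∈ N, n * u0 * n⁻¹ = u}

/-- upper bound for the commuting pairs (Burnside count with fusion) -/
theorem card_W_le {G : Type*} [Group G] [Finite G] (p : ℕ) [hp : Fact p.Prime] (P : Sylow p G)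
    (u0 : G) (hu0 : u0 ∈ P) (hu01 : u0 ≠ 1) :
    Nat.card (WSet p G) +
      Nat.card (OrbSet (Subgroup.normalizer ((P : Subgroup G) : Set G)) u0) * Nat.card G ≤
      p ^ ((Nat.card G).factorization p) * Nat.card G := by
  classical
  set N := Subgroup.normalizer ((P : Subgroup G) : Set G) with hN
  have key : ∀ v : G, ∃ ug : G × G, (∃ k : ℕ, v ^ (p ^ k) = 1) →
      (ug.1 ∈ P ∧ ug.2 * ug.1 * ug.2⁻¹ = v ∧ ((∃ h : G, h * u0 * h⁻¹ = v) → ug.1 = u0)) := by
    intro v
    by_cases hv : ∃ k : ℕ, v ^ (p ^ k) = 1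
    · by_cases hc : ∃ h : G, h * u0 * h⁻¹ = v
      · obtain ⟨h, hh⟩ := hc
        exact ⟨(u0, h), fun _ => ⟨hu0, hh, fun _ => rfl⟩⟩
      · obtain ⟨k, hk⟩ := hv
        obtain ⟨g, hg⟩ := S4127.exists_conj_mem_sylow p P v k hk
        exact ⟨(g * v * g⁻¹, g⁻¹), fun _ => ⟨hg, by group, fun h => absurd h hc⟩⟩
    · exact ⟨(1, 1), fun h => absurd h hv⟩
  choose ug hug using key
  have hOP : ∀ o : OrbSet N u0, (o : G) ∈ P := by
    rintro ⟨o, n, hn, rfl⟩
    exact (Subgroup.mem_normalizer_iff.mp hn u0).mp hu0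
  have hO1 : ∀ o : OrbSet N u0, (o : G) ≠ 1 := by
    rintro ⟨o, n, hn, rfl⟩ h1
    apply hu01
    have h1' : n * u0 * n⁻¹ = 1 := h1
    have h2 : u0 = n⁻¹ * (n * u0 * n⁻¹) * n := by group
    rw [h2, h1']; group
  let β : OrbSet N u0 → (P : Subgroup G) := fun o =>
    if (o : G) = u0 then 1 else ⟨(o : G), hOP o⟩
  have hβ : Function.Injective β := by
    intro o o' h
    by_cases h1 : (o : G) = u0
    · by_cases h2 : (o' : G) = u0
      · exact Subtype.ext (h1.trans h2.symm)
      · exfalso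
        have e1 : β o = 1 := if_pos h1
        have e2 : β o' = ⟨(o' : G), hOP o'⟩ := if_neg h2
        rw [e1, e2] at h
        exact hO1 o' (congrArg Subtype.val h).symm
    · by_cases h2 : (o' : G) = u0
      · exfalso
        have e1 : β o = ⟨(o : G), hOP o⟩ := if_neg h1
        have e2 : β o' = 1 := if_pos h2
        rw [e1, e2] at h
        exact hO1 o (congrArg Subtype.val h)
      · have e1 : β o = ⟨(o : G), hOP o⟩ := if_neg h1
        have e2 : β o' = ⟨(o' : G), hOP o'⟩ := if_neg h2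
        rw [e1, e2] at h
        exact Subtype.ext (Subtype.mk.inj h)
  have hdisj : ∀ v : G, (∃ k : ℕ, v ^ (p ^ k) = 1) → v ≠ 1 → ∀ o : OrbSet N u0,
      (ug v).1 ≠ (β o : G) := by
    intro v hv hv1 o h
    have e1 := (hug v hv).2.1
    by_cases ho : (o : G) = u0
    · have e2 : β o = 1 := if_pos ho
      rw [e2] at h
      apply hv1
      rw [← e1, h]
      simp
    · have e2 : β o = ⟨(o : G), hOP o⟩ := if_neg ho
      rw [e2] at h
      have h' : (ug v).1 = (o : G) := h
      obtain ⟨n, hn, hno⟩ := o.2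
      have e3 : (ug v).2 * n * u0 * ((ug v).2 * n)⁻¹ = v := by
        calc (ug v).2 * n * u0 * ((ug v).2 * n)⁻¹ = (ug v).2 * (n * u0 * n⁻¹) * (ug v).2⁻¹ := by
              group
          _ = v := by rw [hno, ← h', e1]
      have e4 := (hug v hv).2.2 ⟨_, e3⟩
      exact ho (h'.symm.trans e4)
  let Ψ : WSet p G ⊕ (OrbSet N u0 × G) → ↥(P : Subgroup G) × G := fun s =>
    match s with
    | Sum.inl vc => (⟨(ug (vc : G × G).1).1, (hug _ vc.2.1.1).1⟩,
        (vc : G × G).2 * (ug (vc : G × G).1).2)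
    | Sum.inr og => (β og.1, og.2)
  have hΨ : Function.Injective Ψ := by
    rintro (⟨⟨v, c⟩, hv, hvc⟩ | ⟨o, g⟩) (⟨⟨v', c'⟩, hv', hvc'⟩ | ⟨o', g'⟩) hh
    · have h1 : (ug v).1 = (ug v').1 := congrArg Subtype.val (congrArg Prod.fst hh)
      have h2 : c * (ug v).2 = c' * (ug v').2 := congrArg Prod.snd hh
      have e1 := (hug v hv.1).2.1
      have e2 := (hug v' hv'.1).2.1
      have hvc1 : v * c = c * v := hvc
      have hvc2 : v' * c' = c' * v' := hvc'
      have a1 : (c * (ug v).2) * (ug v).1 * (c * (ug v).2)⁻¹ = v := by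
        calc (c * (ug v).2) * (ug v).1 * (c * (ug v).2)⁻¹
            = c * ((ug v).2 * (ug v).1 * (ug v).2⁻¹) * c⁻¹ := by group
          _ = c * v * c⁻¹ := by rw [e1]
          _ = v := by rw [← hvc1]; group
      have a2 : (c' * (ug v').2) * (ug v').1 * (c' * (ug v').2)⁻¹ = v' := by
        calc (c' * (ug v').2) * (ug v').1 * (c' * (ug v').2)⁻¹
            = c' * ((ug v').2 * (ug v').1 * (ug v').2⁻¹) * c'⁻¹ := by group
          _ = c' * v' * c'⁻¹ := by rw [e2]
          _ = v' := by rw [← hvc2]; group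
      have h3 : v = v' := by
        rw [← a1, ← a2, h1, h2]
      subst h3
      have h4 : c = c' := mul_right_cancel h2
      subst h4
      rfl
    · exfalso
      have h1 : (ug v).1 = (β o' : G) := congrArg Subtype.val (congrArg Prod.fst hh)
      exact hdisj v hv.1 hv.2 o' h1
    · exfalso
      have h1 : (β o : G) = (ug v').1 := congrArg Subtype.val (congrArg Prod.fst hh)
      exact hdisj v' hv'.1 hv'.2 o h1.symm
    · have h1 : β o = β o' := congrArg Prod.fst hh
      have h2 : g = g' := congrArg Prod.snd hh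
      rw [hβ h1, h2]
  have := Nat.card_le_card_of_injective Ψ hΨ
  rw [Nat.card_sum, Nat.card_prod, Nat.card_prod, Sylow.card_eq_multiplicity] at this
  exact this

/-- the orbit is large -/
theorem card_orb_gt {G : Type*} [Group G] [Finite G] (p : ℕ) [hp : Fact p.Prime]
    (hmin : ∀ r : ℕ, r.Prime → r ∣ Nat.card G → p ≤ r)
    (P : Sylow p G) (hab : ∀ a ∈ P, ∀ b ∈ P, a * b = b * a)
    (u0 : G) (hu0 : u0 ∈ P) (x : G)
    (hx : x ∈ Subgroup.normalizer ((P : Subgroup G) : Set G)) (hxu : x * u0 ≠ u0 * x) :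
    p + 1 ≤ Nat.card (OrbSet (Subgroup.normalizer ((P : Subgroup G) : Set G)) u0) := by
  classical
  set N := Subgroup.normalizer ((P : Subgroup G) : Set G) with hN
  have hPN : (P : Subgroup G) ≤ N := Subgroup.le_normalizer
  set g0 : N := ⟨u0, hPN hu0⟩ with hg0
  -- the class of g0 in N
  let f : {y : N // ∃ x : N, x * g0 * x⁻¹ = y} → OrbSet N u0 := fun y =>
    ⟨((y : N) : G), by
      obtain ⟨x, hx⟩ := y.2
      exact ⟨x, x.2, by rw [← hx]; rfl⟩⟩
  have hf : Function.Bijective f := by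
    constructor
    · intro y y' h
      have h' : (f y : G) = (f y' : G) := congrArg Subtype.val h
      exact Subtype.ext (Subtype.ext h')
    · rintro ⟨u, n, hn, hnu⟩
      have huN : u ∈ N := by
        rw [← hnu]
        exact N.mul_mem (N.mul_mem hn (hPN hu0)) (N.inv_mem hn)
      exact ⟨⟨⟨u, huN⟩, ⟨n, hn⟩, Subtype.ext hnu⟩, rfl⟩
  have hcard : Nat.card {y : N // ∃ x : N, x * g0 * x⁻¹ = y} = Nat.card (OrbSet N u0) :=
    Nat.card_congr (Equiv.ofBijective f hf)
  have h5 := Cfsg.Agent.Lib.Helper73.card_conj_mul_card_centralizer g0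
  rw [hcard] at h5
  set m := Nat.card (OrbSet N u0) with hm
  -- P inside the centralizer
  have hPc : (P : Subgroup G).subgroupOf N ≤ Subgroup.centralizer ({g0} : Set N) := by
    intro t ht
    rw [Subgroup.mem_centralizer_iff]
    intro h hh
    rw [Set.mem_singleton_iff] at hh
    subst hh
    apply Subtype.ext
    exact hab u0 hu0 (t : G) (Subgroup.mem_subgroupOf.mp ht)
  have hcP : Nat.card ((P : Subgroup G).subgroupOf N) = p ^ (Nat.card G).factorization p := by
    rw [Nat.card_congr (Subgroup.subgroupOfEquivOfLe hPN).toEquiv]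
    exact Sylow.card_eq_multiplicity P
  have hd1 : p ^ (Nat.card G).factorization p ∣ Nat.card (Subgroup.centralizer ({g0} : Set N)) := by
    rw [← hcP]
    exact Subgroup.card_dvd_of_le hPc
  have hd2 : Nat.card N ∣ Nat.card G := Subgroup.card_subgroup_dvd_card N
  have hpm : ¬ p ∣ m := by
    intro hpm
    have h6 : p ^ ((Nat.card G).factorization p + 1) ∣ Nat.card G := by
      refine dvd_trans ?_ hd2
      rw [← h5, pow_succ, mul_comm]
      exact Nat.mul_dvd_mul hpm hd1
    exact Nat.pow_succ_factorization_not_dvd Nat.card_pos.ne' hp.1 h6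
  have hm1 : 1 < m := by
    rw [hm]
    have : Finite (OrbSet N u0) := Finite.of_injective _ Subtype.val_injective
    rw [Finite.one_lt_card_iff_nontrivial]
    refine ⟨⟨⟨u0, 1, N.one_mem, by group⟩, ⟨x * u0 * x⁻¹, x, hx, rfl⟩, ?_⟩⟩
    intro h
    have h7 : u0 = x * u0 * x⁻¹ := congrArg Subtype.val h
    apply hxu
    calc x * u0 = (x * u0 * x⁻¹) * x := by group
      _ = u0 * x := by rw [← h7]
  have hmG : m ∣ Nat.card G := dvd_trans (Dvd.intro _ h5) hd2
  have hr : (m.minFac).Prime := Nat.minFac_prime (by omega)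
  have h8 : p ≤ m.minFac := hmin _ hr (dvd_trans (Nat.minFac_dvd m) hmG)
  have h9 : m.minFac ≠ p := by
    intro h
    exact hpm (h ▸ Nat.minFac_dvd m)
  have h10 : m.minFac ≤ m := Nat.minFac_le (by omega)
  omega

end Cfsg.Agent.Lib.Helper66.SqfNil
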