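import Mathlib
import Cfsg.Agent.S4127
import Cfsg.Agent.S4134
import Cfsg.Agent.Lib.Helper66.SqfNilC

set_option autoImplicit false

namespace Cfsg.Agent.Lib.Helper66.SqfNil

open Cfsg.Agent

/-- the counting argument: the normalizer of an abelian Sylow subgroup centralizes it -/
theorem normalizer_le_centralizer {G : Type*} [Group G] [Finite G] (p : ℕ) [hp : Fact p.Prime]
    (hA : Nat.card (PairSet p G) = Nat.card G)
    (hmin : ∀ r : ℕ, r.Prime → r ∣ Nat.card G → p ≤ r)
    (hab : ∀ Q : Subgroup G, IsPGroup p Q → ∀ a ∈ Q, ∀ b ∈ Q, a * b = b * a)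
    (hsq : ∀ y : G, (orderOf y).Coprime p →
      ¬ p ^ 2 ∣ (Subgroup.centralizer ({y} : Set G)).index)
    (hK : ∀ v : G, (∃ k : ℕ, v ^ (p ^ k) = 1) → v ≠ 1 → ∀ y z : G, (orderOf y).Coprime p →
      (orderOf z).Coprime p → v * y = y * v → v * z = z * v → (orderOf (y⁻¹ * z)).Coprime p)
    (P : Sylow p G) :
    Subgroup.normalizer ((P : Subgroup G) : Set G) ≤
      Subgroup.centralizer ((P : Subgroup G) : Set G) := by
  by_contra hcon
  rw [SetLike.not_le_iff_exists] at hcon
  obtain ⟨x, hx, hxc⟩ := hcon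
  rw [Subgroup.mem_centralizer_iff] at hxc
  push Not at hxc
  obtain ⟨u0, hu0, hxu⟩ := hxc
  have hu0' : u0 ∈ P := hu0
  have hu01 : u0 ≠ 1 := by
    rintro rfl
    exact hxu (by simp)
  have ha1 : 1 ≤ (Nat.card G).factorization p := by
    by_contra h0
    have h0' : (Nat.card G).factorization p = 0 := by omega
    have hc : Nat.card (P : Subgroup G) = 1 := by
      rw [Sylow.card_eq_multiplicity, h0', pow_zero]
    have hbot : (P : Subgroup G) = ⊥ := Subgroup.card_eq_one.mp hc
    have hu0'' : u0 ∈ (P : Subgroup G) := hu0'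
    rw [hbot, Subgroup.mem_bot] at hu0''
    exact hu01 hu0''
  have hB := card_pairs_ge p hsq
  have hC1 := card_pairs_split (G := G) p
  have hC2 := card_pairs'_le p hab hK
  have hC3 := card_W_le p P u0 hu0' hu01
  have hM := card_orb_gt p hmin P (hab P P.isPGroup') u0 hu0' x hx (Ne.symm hxu)
  have hn : 0 < Nat.card G := Nat.card_pos
  have hpa : p ^ (Nat.card G).factorization p = p * p ^ ((Nat.card G).factorization p - 1) := by
    rw [← pow_succ']
    congr 1
    omega
  rw [hA] at hC1 hB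
  generalize Nat.card {y : G // (orderOf y).Coprime p} = X at hB hC1
  generalize Nat.card (PairSet' p G) = S' at hC1 hC2
  generalize Nat.card (WSet p G) = W at hC2 hC3
  generalize Nat.card (OrbSet (Subgroup.normalizer ((P : Subgroup G) : Set G)) u0) = m at hC3 hM
  generalize Nat.card G = n at *
  generalize p ^ (n.factorization p - 1) = c at *
  generalize p ^ n.factorization p = d at *
  -- hB : X * c ≤ n ; hC1 : n = X + S' ; hC2 : S' * d ≤ W ; hC3 : W + m * n ≤ d * n ; d = p * c
  subst hpa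
  subst hC1
  have h2 : m * (X + S') ≤ p * c * X := by nlinarith
  have h3 : p * c * X ≤ p * (X + S') := by nlinarith
  have h4 : (p + 1) * (X + S') ≤ m * (X + S') := Nat.mul_le_mul_right _ hM
  nlinarith

/-- the conclusion of the counting argument -/
theorem exists_pprime_of_count {G : Type*} [Group G] [Finite G] (p : ℕ) [hp : Fact p.Prime]
    (hA : Nat.card (PairSet p G) = Nat.card G)
    (hmin : ∀ r : ℕ, r.Prime → r ∣ Nat.card G → p ≤ r)
    (hab : ∀ Q : Subgroup G, IsPGroup p Q → ∀ a ∈ Q, ∀ b ∈ Q, a * b = b * a)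
    (hsq : ∀ y : G, (orderOf y).Coprime p →
      ¬ p ^ 2 ∣ (Subgroup.centralizer ({y} : Set G)).index)
    (hK : ∀ v : G, (∃ k : ℕ, v ^ (p ^ k) = 1) → v ≠ 1 → ∀ y z : G, (orderOf y).Coprime p →
      (orderOf z).Coprime p → v * y = y * v → v * z = z * v → (orderOf (y⁻¹ * z)).Coprime p) :
    ∃ K : Subgroup G, ∀ g : G, g ∈ K ↔ (orderOf g).Coprime p := by
  obtain ⟨P⟩ : Nonempty (Sylow p G) := inferInstance
  have hN := normalizer_le_centralizer p hA hmin hab hsq hK P
  have hcompl := MonoidHom.ker_transferSylow_isComplement' P hN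
  exact ⟨(MonoidHom.transferSylow P hN).ker, fun k => S4127.mem_complement_iff p P _ hcompl k⟩

end Cfsg.Agent.Lib.Helper66.SqfNil
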