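import Mathlib
import Cfsg.Agent.S4127
import Cfsg.Agent.Lib.Helper66.SqfNilA

set_option autoImplicit false

namespace Cfsg.Agent.Lib.Helper66.SqfNil

open Cfsg.Agent

/-- p'-elements of a quotient lift to p'-elements -/
theorem exists_lift_coprime {G : Type*} [Group G] [Finite G] (p : ℕ) [hp : Fact p.Prime]
    (N : Subgroup G) [N.Normal] (y : G ⧸ N) (hy : (orderOf y).Coprime p) :
    ∃ x : G, (x : G ⧸ N) = y ∧ (orderOf x).Coprime p := by
  obtain ⟨g, rfl⟩ := QuotientGroup.mk_surjective y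
  obtain ⟨i, j, a, hg, hi, hj⟩ := S4127.exists_decomp p hp.1 g
  refine ⟨g ^ j, ?_, ((Nat.Prime.coprime_iff_not_dvd hp.1).mpr hj).symm⟩
  have h1 : ((g ^ i : G) : G ⧸ N) ^ (p ^ a) = 1 := by
    rw [← QuotientGroup.mk_pow, hi]; rfl
  have h2 : (orderOf ((g ^ i : G) : G ⧸ N)).Coprime p := by
    have e : ((g ^ i : G) : G ⧸ N) = (g : G ⧸ N) ^ i := QuotientGroup.mk_zpow N g i
    rw [e]
    refine Nat.Coprime.coprime_dvd_left (orderOf_dvd_of_pow_eq_one ?_) hy
    rw [← zpow_natCast, ← zpow_mul, mul_comm, zpow_mul, zpow_natCast, pow_orderOf_eq_one,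
      one_zpow]
  have h3 := eq_one_of_coprime_of_pow p _ a h1 h2
  conv_rhs => rw [hg]
  rw [QuotientGroup.mk_mul, h3, one_mul]

/-- class sizes in a quotient divide class sizes in the group -/
theorem index_centralizer_quotient_dvd {G : Type*} [Group G] [Finite G]
    (N : Subgroup G) [N.Normal] (x : G) :
    (Subgroup.centralizer ({(x : G ⧸ N)} : Set (G ⧸ N))).index ∣
      (Subgroup.centralizer ({x} : Set G)).index := by
  have hle : (Subgroup.centralizer ({x} : Set G)).map (QuotientGroup.mk' N) ≤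
      Subgroup.centralizer ({(x : G ⧸ N)} : Set (G ⧸ N)) := by
    rintro _ ⟨c, hc, rfl⟩
    have hc : c ∈ Subgroup.centralizer ({x} : Set G) := hc
    rw [Subgroup.mem_centralizer_iff] at hc ⊢
    intro h hh
    rw [Set.mem_singleton_iff] at hh
    subst hh
    have h1 := hc x rfl
    show (x : G ⧸ N) * (c : G ⧸ N) = (c : G ⧸ N) * (x : G ⧸ N)
    rw [← QuotientGroup.mk_mul, h1, QuotientGroup.mk_mul]
  exact dvd_trans (Subgroup.index_dvd_of_le hle)
    (Subgroup.index_map_dvd _ (QuotientGroup.mk'_surjective N))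

/-- lifting the subgroup of p'-elements through a central quotient -/
theorem lift_pprime {G : Type*} [Group G] [Finite G] (p : ℕ) [hp : Fact p.Prime]
    (N : Subgroup G) [N.Normal] (hN : N ≤ Subgroup.center G)
    (K' : Subgroup (G ⧸ N)) (hK' : ∀ g : G ⧸ N, g ∈ K' ↔ (orderOf g).Coprime p) :
    ∃ K : Subgroup G, ∀ g : G, g ∈ K ↔ (orderOf g).Coprime p := by
  set M := K'.comap (QuotientGroup.mk' N) with hM
  have hMall : ∀ g : G, (orderOf g).Coprime p → g ∈ M := by
    intro g hg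
    show (g : G ⧸ N) ∈ K'
    rw [hK']
    exact Nat.Coprime.coprime_dvd_left (orderOf_map_dvd (QuotientGroup.mk' N) g) hg
  have hcen : ∀ t k : M, (∃ a : ℕ, t ^ (p ^ a) = 1) → k * t = t * k := by
    rintro ⟨t, ht⟩ ⟨k, hk⟩ ⟨a, ha⟩
    have ha' : t ^ (p ^ a) = 1 := by simpa using congrArg Subtype.val ha
    have h1 : ((t : G) : G ⧸ N) ∈ K' := ht
    rw [hK'] at h1
    have h2 : ((t : G) : G ⧸ N) ^ (p ^ a) = 1 := by
      rw [← QuotientGroup.mk_pow, ha']; rfl
    have h3 := eq_one_of_coprime_of_pow p _ a h2 h1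
    have h4 : t ∈ N := (QuotientGroup.eq_one_iff t).mp h3
    have h5 := Subgroup.mem_center_iff.mp (hN h4) k
    exact Subtype.ext h5
  obtain ⟨H, _, hH⟩ := S4127.exists_compl_of_central p hcen
  refine ⟨H.map M.subtype, fun g => ⟨?_, fun hg => ?_⟩⟩
  · rintro ⟨k, hk, rfl⟩
    have h1 := (hH k).mp hk
    rwa [← Subgroup.orderOf_coe] at h1
  · exact ⟨⟨g, hMall g hg⟩, (hH _).mpr (by rw [← Subgroup.orderOf_coe]; exact hg), rfl⟩

end Cfsg.Agent.Lib.Helper66.SqfNil
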