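import Mathlib
import Cfsg.Agent.S4127
import Cfsg.Agent.S4134
import Cfsg.Agent.Lib.Helper66.SqfNilD
import Cfsg.Agent.Lib.Helper21.SqfCNT
import Cfsg.Agent.Lib.Helper65.SqfK2
import Cfsg.Agent.Lib.Helper66.SqfNilLQ

set_option autoImplicit false

universe u

namespace Cfsg.Agent.Lib.Helper66.SqfNil

open Cfsg.Agent

/-- a p-subgroup of the centralizer of `y` of order at least `p^(a-1)` containing a given
p-element -/
theorem exists_pelts_commuting' {G : Type*} [Group G] [Finite G] (p : ℕ) [hp : Fact p.Prime]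
    (y : G) (hy : ¬ p ^ 2 ∣ (Subgroup.centralizer ({y} : Set G)).index)
    (v : G) (hv : ∃ k : ℕ, v ^ (p ^ k) = 1) (hvy : v * y = y * v) :
    ∃ T : Subgroup G, IsPGroup p T ∧ T ≤ Subgroup.centralizer {y} ∧
      p ^ ((Nat.card G).factorization p - 1) ∣ Nat.card T ∧ v ∈ T := by
  set C := Subgroup.centralizer ({y} : Set G) with hC
  have hvC : v ∈ C := by
    rw [hC, Subgroup.mem_centralizer_iff]
    intro h hh
    rw [Set.mem_singleton_iff] at hh
    subst hh
    exact hvy.symm
  obtain ⟨k, hk⟩ := hv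
  have hz : IsPGroup p (Subgroup.zpowers (⟨v, hvC⟩ : C)) :=
    S4127.isPGroup_zpowers p _ k (Subtype.ext (by simpa using hk))
  obtain ⟨T0, hT0⟩ := hz.exists_le_sylow
  refine ⟨(T0 : Subgroup C).map C.subtype, T0.isPGroup'.map _, Subgroup.map_subtype_le _, ?_,
    ?_⟩
  · rw [Subgroup.card_subtype, Sylow.card_eq_multiplicity T0]
    apply pow_dvd_pow
    have h2 : Nat.card C * C.index = Nat.card G := Subgroup.card_mul_index C
    have hi : C.index ≠ 0 := Subgroup.index_ne_zero_of_finite
    have hc : Nat.card C ≠ 0 := Nat.card_pos.ne'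
    have h3 : (Nat.card G).factorization p =
        (Nat.card C).factorization p + C.index.factorization p := by
      rw [← h2, Nat.factorization_mul hc hi]; rfl
    have h4 : C.index.factorization p ≤ 1 := by
      by_contra hlt
      push Not at hlt
      exact hy ((hp.1.pow_dvd_iff_le_factorization hi).mpr hlt)
    omega
  · exact ⟨⟨v, hvC⟩, hT0 (Subgroup.mem_zpowers _), rfl⟩

/-- the hypotheses pass to centralizers of p-elements -/
theorem centralizer_hyp {G : Type*} [Group G] [Finite G] (p : ℕ) [hp : Fact p.Prime]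
    (hab : ∀ Q : Subgroup G, IsPGroup p Q → ∀ a ∈ Q, ∀ b ∈ Q, a * b = b * a)
    (hsq : ∀ y : G, (orderOf y).Coprime p →
      ¬ p ^ 2 ∣ (Subgroup.centralizer ({y} : Set G)).index)
    (v : G) (hv : ∃ k : ℕ, v ^ (p ^ k) = 1)
    (C : Subgroup G) (hC : C = Subgroup.centralizer ({v} : Set G))
    (y : C) (hy : (orderOf y).Coprime p) :
    ¬ p ^ 2 ∣ (Subgroup.centralizer ({y} : Set C)).index := by
  intro hdvd
  have hy' : (orderOf (y : G)).Coprime p := by rwa [Subgroup.orderOf_coe]
  have hvy : v * (y : G) = (y : G) * v := by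
    have h1 : (y : G) ∈ Subgroup.centralizer ({v} : Set G) := hC ▸ y.2
    rw [Subgroup.mem_centralizer_iff] at h1
    exact h1 v rfl
  obtain ⟨T, hT, hTy, hTc, hvT⟩ := exists_pelts_commuting' p (y : G) (hsq _ hy') v hv hvy
  have hTC : T ≤ C := by
    intro t ht
    rw [hC, Subgroup.mem_centralizer_iff]
    intro h hh
    rw [Set.mem_singleton_iff] at hh
    subst hh
    exact hab T hT h hvT t ht
  -- T.subgroupOf C ≤ centralizer {y}
  have hle : T.subgroupOf C ≤ Subgroup.centralizer ({y} : Set C) := by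
    intro t ht
    rw [Subgroup.mem_centralizer_iff]
    intro h hh
    rw [Set.mem_singleton_iff] at hh
    subst hh
    have h1 := hTy (Subgroup.mem_subgroupOf.mp ht)
    rw [Subgroup.mem_centralizer_iff] at h1
    exact Subtype.ext (h1 _ rfl)
  have hcT : Nat.card (T.subgroupOf C) = Nat.card T :=
    Nat.card_congr (Subgroup.subgroupOfEquivOfLe hTC).toEquiv
  have hd1 : p ^ ((Nat.card G).factorization p - 1) ∣
      Nat.card (Subgroup.centralizer ({y} : Set C)) :=
    dvd_trans hTc (hcT ▸ Subgroup.card_dvd_of_le hle)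
  have hd2 : Nat.card (Subgroup.centralizer ({y} : Set C)) *
      (Subgroup.centralizer ({y} : Set C)).index = Nat.card C := Subgroup.card_mul_index _
  have hd3 : Nat.card C ∣ Nat.card G := Subgroup.card_subgroup_dvd_card C
  have hd4 : p ^ ((Nat.card G).factorization p - 1) * p ^ 2 ∣ Nat.card G := by
    refine dvd_trans ?_ hd3
    rw [← hd2]
    exact Nat.mul_dvd_mul hd1 hdvd
  have hpG : p ∣ Nat.card G :=
    dvd_trans (dvd_trans (dvd_pow_self p (by norm_num)) (Dvd.intro_left _ rfl)) hd4
  have hpos : 0 < (Nat.card G).factorization p :=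
    hp.1.factorization_pos_of_dvd Nat.card_pos.ne' hpG
  have hd5 : p ^ ((Nat.card G).factorization p + 1) ∣ Nat.card G := by
    have e : (Nat.card G).factorization p + 1 = ((Nat.card G).factorization p - 1) + 2 := by
      omega
    rw [e, pow_add]
    exact hd4
  exact Nat.pow_succ_factorization_not_dvd Nat.card_pos.ne' hp.1 hd5

/-- Sylow p-subgroups abelian, `p` the smallest prime, class sizes of p'-elements not divisible
by `p^2`: the p'-elements form a subgroup. -/
theorem pprime_of_abelian_aux (n : ℕ) : ∀ (G : Type u) [Group G] [Finite G] (p : ℕ)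
    [Fact p.Prime], Nat.card G = n →
    (∀ r : ℕ, r.Prime → r ∣ Nat.card G → p ≤ r) →
    (∀ Q : Subgroup G, IsPGroup p Q → ∀ a ∈ Q, ∀ b ∈ Q, a * b = b * a) →
    (∀ y : G, (orderOf y).Coprime p → ¬ p ^ 2 ∣ (Subgroup.centralizer ({y} : Set G)).index) →
    ∃ K : Subgroup G, ∀ g : G, g ∈ K ↔ (orderOf g).Coprime p := by
  induction n using Nat.strong_induction_on with
  | _ n ih =>
  intro G _ _ p hp hn hmin hab hsq
  by_cases hcen : ∃ v : G, v ≠ 1 ∧ (∃ k : ℕ, v ^ (p ^ k) = 1) ∧ v ∈ Subgroup.center G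
  · -- Case 1
    obtain ⟨v, hv1, ⟨k, hk⟩, hvc⟩ := hcen
    set N := Subgroup.zpowers v with hN
    have hNc : N ≤ Subgroup.center G := Subgroup.zpowers_le.mpr hvc
    have : N.Normal := ⟨fun n hn g => by
      have h1 := Subgroup.mem_center_iff.mp (hNc hn) g
      have h2 : g * n * g⁻¹ = n := by rw [h1, mul_inv_cancel_right]
      rw [h2]; exact hn⟩
    have hNp : IsPGroup p N := S4127.isPGroup_zpowers p v k hk
    have hN1 : 1 < Nat.card N := by
      rw [Subgroup.one_lt_card_iff_ne_bot]
      intro hbot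
      have : v ∈ N := Subgroup.mem_zpowers v
      rw [hbot, Subgroup.mem_bot] at this
      exact hv1 this
    have hcard : Nat.card G = Nat.card (G ⧸ N) * Nat.card N :=
      Subgroup.card_eq_card_quotient_mul_card_subgroup N
    have hlt : Nat.card (G ⧸ N) < n := by
      have hpos : 0 < Nat.card (G ⧸ N) := Nat.card_pos
      rw [← hn, hcard]
      nlinarith
    have hmin' : ∀ r : ℕ, r.Prime → r ∣ Nat.card (G ⧸ N) → p ≤ r := fun r hr hrd =>
      hmin r hr (dvd_trans hrd (Subgroup.card_quotient_dvd_card N))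
    have hab' : ∀ Q : Subgroup (G ⧸ N), IsPGroup p Q → ∀ a ∈ Q, ∀ b ∈ Q, a * b = b * a := by
      intro Q' hQ' a ha b hb
      obtain ⟨a, rfl⟩ := QuotientGroup.mk_surjective a
      obtain ⟨b, rfl⟩ := QuotientGroup.mk_surjective b
      have hQ : IsPGroup p (Q'.comap (QuotientGroup.mk' N)) :=
        hQ'.comap_of_ker_isPGroup _ (by rw [QuotientGroup.ker_mk']; exact hNp)
      have h1 := hab _ hQ a ha b hb
      rw [← QuotientGroup.mk_mul, h1, QuotientGroup.mk_mul]
    have hsq' : ∀ y : G ⧸ N, (orderOf y).Coprime p →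
        ¬ p ^ 2 ∣ (Subgroup.centralizer ({y} : Set (G ⧸ N))).index := by
      intro y hy
      obtain ⟨x, rfl, hx⟩ := exists_lift_coprime p N y hy
      intro hdvd
      exact hsq x hx (dvd_trans hdvd (index_centralizer_quotient_dvd N x))
    obtain ⟨K', hK'⟩ := ih _ hlt (G ⧸ N) p rfl hmin' hab' hsq'
    exact lift_pprime p N hNc K' hK'
  · -- Case 2
    push Not at hcen
    have hK : ∀ v : G, (∃ k : ℕ, v ^ (p ^ k) = 1) → v ≠ 1 → ∀ y z : G, (orderOf y).Coprime p →
        (orderOf z).Coprime p → v * y = y * v → v * z = z * v →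
        (orderOf (y⁻¹ * z)).Coprime p := by
      intro v hvp hv1 y z hy hz hvy hvz
      set C := Subgroup.centralizer ({v} : Set G) with hC
      have hCne : C ≠ ⊤ := by
        intro htop
        apply hcen v hv1 hvp
        rw [Subgroup.mem_center_iff]
        intro g
        have h1 : g ∈ C := htop ▸ Subgroup.mem_top g
        rw [hC, Subgroup.mem_centralizer_iff] at h1
        exact (h1 v rfl).symm
      have hlt : Nat.card C < n := by
        rw [← hn]
        exact lt_of_le_of_ne (Subgroup.card_le_card_group C)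
          (fun h => hCne (Subgroup.eq_top_of_card_eq C h))
      have hmin' : ∀ r : ℕ, r.Prime → r ∣ Nat.card C → p ≤ r := fun r hr hrd =>
        hmin r hr (dvd_trans hrd (Subgroup.card_subgroup_dvd_card C))
      have hab' : ∀ Q : Subgroup C, IsPGroup p Q → ∀ a ∈ Q, ∀ b ∈ Q, a * b = b * a := by
        intro Q hQ a ha b hb
        have h1 := hab (Q.map C.subtype) (hQ.map _) (a : G) ⟨a, ha, rfl⟩ (b : G) ⟨b, hb, rfl⟩
        exact Subtype.ext h1
      have hsq' : ∀ y : C, (orderOf y).Coprime p →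
          ¬ p ^ 2 ∣ (Subgroup.centralizer ({y} : Set C)).index :=
        fun y hy => centralizer_hyp p hab hsq v hvp C hC y hy
      obtain ⟨K, hK⟩ := ih _ hlt C p rfl hmin' hab' hsq'
      have hyC : y ∈ C := by
        rw [hC, Subgroup.mem_centralizer_iff]
        intro h hh
        rw [Set.mem_singleton_iff] at hh
        subst hh
        exact hvy
      have hzC : z ∈ C := by
        rw [hC, Subgroup.mem_centralizer_iff]
        intro h hh
        rw [Set.mem_singleton_iff] at hh
        subst hh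
        exact hvz
      have h1 : (⟨y, hyC⟩ : C) ∈ K := (hK _).mpr (by rw [← Subgroup.orderOf_coe]; exact hy)
      have h2 : (⟨z, hzC⟩ : C) ∈ K := (hK _).mpr (by rw [← Subgroup.orderOf_coe]; exact hz)
      have h3 := (hK _).mp (K.mul_mem (K.inv_mem h1) h2)
      rw [← Subgroup.orderOf_coe] at h3
      exact h3
    exact exists_pprime_of_count p (Cfsg.Agent.Lib.Helper21.Sqf.card_commuting_pairs p) hmin hab
      hsq hK

/-- Sylow p-subgroups abelian, `p` the smallest prime, class sizes of p'-elements not divisible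
by `p^2`: the p'-elements form a subgroup. -/
theorem pprime_of_abelian (G : Type u) [Group G] [Finite G] (p : ℕ) [Fact p.Prime]
    (hmin : ∀ r : ℕ, r.Prime → r ∣ Nat.card G → p ≤ r)
    (hab : ∀ Q : Subgroup G, IsPGroup p Q → ∀ a ∈ Q, ∀ b ∈ Q, a * b = b * a)
    (hsq : ∀ y : G, (orderOf y).Coprime p →
      ¬ p ^ 2 ∣ (Subgroup.centralizer ({y} : Set G)).index) :
    ∃ K : Subgroup G, ∀ g : G, g ∈ K ↔ (orderOf g).Coprime p :=
  pprime_of_abelian_aux _ G p rfl hmin hab hsq

end Cfsg.Agent.Lib.Helper66.SqfNil
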