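import Mathlib

set_option autoImplicit false

namespace Cfsg.Agent.Lib.Helper66.SqfNil

theorem map_mk_commutator {G : Type*} [Group G] (N : Subgroup G) [N.Normal] :
    (commutator G).map (QuotientGroup.mk' N) = commutator (G ⧸ N) := by
  rw [commutator_def, commutator_def, Subgroup.map_commutator,
    Subgroup.map_top_of_surjective _ (QuotientGroup.mk'_surjective N)]

theorem card_derived_quotient {G : Type*} [Group G] [Finite G] (N : Subgroup G) [N.Normal] :
    Nat.card (commutator G) =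
      Nat.card (N ⊓ commutator G : Subgroup G) * Nat.card (commutator (G ⧸ N)) := by
  set φ : ↥(commutator G) →* G ⧸ N := (QuotientGroup.mk' N).comp (commutator G).subtype with hφ
  have hrange : φ.range = commutator (G ⧸ N) := by
    rw [hφ, MonoidHom.range_comp, Subgroup.range_subtype, map_mk_commutator]
  have hker : φ.ker = N.subgroupOf (commutator G) := by
    ext x
    rw [MonoidHom.mem_ker, Subgroup.mem_subgroupOf]
    show ((x : G) : G ⧸ N) = 1 ↔ (x : G) ∈ N
    exact QuotientGroup.eq_one_iff _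
  have h1 := Subgroup.card_mul_index φ.ker
  rw [Subgroup.index_ker, hrange, hker] at h1
  have h2 : Nat.card (N.subgroupOf (commutator G)) = Nat.card (N ⊓ commutator G : Subgroup G) := by
    rw [← Subgroup.inf_subgroupOf_right]
    exact Nat.card_congr (Subgroup.subgroupOfEquivOfLe inf_le_right).toEquiv
  rw [h2] at h1
  exact h1.symm

theorem derived_of_quotient_disjoint {G : Type*} [Group G] [Finite G] (N : Subgroup G) [N.Normal]
    (hdisj : N ⊓ commutator G = ⊥)
    (hc : IsCyclic (commutator (G ⧸ N))) (hs : Squarefree (Nat.card (commutator (G ⧸ N)))) :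
    IsCyclic (commutator G) ∧ Squarefree (Nat.card (commutator G)) := by
  constructor
  · let ψ : ↥(commutator G) →* ↥(commutator (G ⧸ N)) :=
      ((QuotientGroup.mk' N).comp (commutator G).subtype).codRestrict (commutator (G ⧸ N))
        (fun x => by
          rw [← map_mk_commutator N]
          exact ⟨(x : G), x.2, rfl⟩)
    have hψ : Function.Injective ψ := by
      rw [injective_iff_map_eq_one]
      intro x hx
      have h1 : ((x : G) : G ⧸ N) = 1 := congrArg Subtype.val hx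
      have h2 : (x : G) ∈ N := (QuotientGroup.eq_one_iff _).mp h1
      have h3 : (x : G) ∈ (N ⊓ commutator G : Subgroup G) := ⟨h2, x.2⟩
      rw [hdisj, Subgroup.mem_bot] at h3
      exact Subtype.ext h3
    exact isCyclic_of_injective ψ hψ
  · rw [card_derived_quotient N, hdisj, Subgroup.card_bot, one_mul]
    exact hs

theorem derived_abelian_of_quotient {G : Type*} [Group G] [Finite G] (N : Subgroup G)
    [hNn : N.Normal]
    (hN : (Nat.card N).Prime) (hle : N ≤ commutator G)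
    (hc : IsCyclic (commutator (G ⧸ N))) :
    ∀ a ∈ commutator G, ∀ b ∈ commutator G, a * b = b * a := by
  have hfact : Fact (Nat.card N).Prime := ⟨hN⟩
  have hcyc : IsCyclic N := isCyclic_of_prime_card rfl
  have hpow : ∀ g : G, ∃ m : ℤ, ∀ n ∈ N, g * n * g⁻¹ = n ^ m := by
    intro g
    obtain ⟨m, hm⟩ := MonoidHom.map_cyclic ((MulAut.conjNormal g : MulAut N).toMonoidHom)
    refine ⟨m, fun n hn => ?_⟩
    have h1 := congrArg Subtype.val (hm ⟨n, hn⟩)
    simpa using h1
  have hcomm : ∀ a b : G, ∀ n ∈ N,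
      (a * b * a⁻¹ * b⁻¹) * n = n * (a * b * a⁻¹ * b⁻¹) := by
    intro a b n hn
    obtain ⟨i, hi⟩ := hpow a
    obtain ⟨j, hj⟩ := hpow b
    have key : ∀ n' ∈ N, a * (b * n' * b⁻¹) * a⁻¹ = b * (a * n' * a⁻¹) * b⁻¹ := by
      intro n' hn'
      rw [hj n' hn', hi n' hn', hi _ (N.zpow_mem hn' j), hj _ (N.zpow_mem hn' i), ← zpow_mul,
        ← zpow_mul, mul_comm]
    have hn' : a⁻¹ * (b⁻¹ * n * b) * a ∈ N := by
      have h1 : b⁻¹ * n * b⁻¹⁻¹ ∈ N := hNn.conj_mem n hn b⁻¹
      have h2 := hNn.conj_mem _ h1 a⁻¹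
      simpa [inv_inv] using h2
    have h3 := key _ hn'
    have e1 : a * (b * (a⁻¹ * (b⁻¹ * n * b) * a) * b⁻¹) * a⁻¹ =
        (a * b * a⁻¹ * b⁻¹) * n * (a * b * a⁻¹ * b⁻¹)⁻¹ := by group
    have e2 : b * (a * (a⁻¹ * (b⁻¹ * n * b) * a) * a⁻¹) * b⁻¹ = n := by group
    rw [e1, e2] at h3
    calc (a * b * a⁻¹ * b⁻¹) * n
        = ((a * b * a⁻¹ * b⁻¹) * n * (a * b * a⁻¹ * b⁻¹)⁻¹) * (a * b * a⁻¹ * b⁻¹) := by group
      _ = n * (a * b * a⁻¹ * b⁻¹) := by rw [h3]
  have hcent : commutator G ≤ Subgroup.centralizer (N : Set G) := by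
    rw [commutator_eq_closure, Subgroup.closure_le]
    rintro _ ⟨a, b, rfl⟩
    rw [SetLike.mem_coe, Subgroup.mem_centralizer_iff]
    intro n hn
    rw [commutatorElement_def]
    exact (hcomm a b n hn).symm
  obtain ⟨⟨c', hc'⟩, hgen⟩ := hc.exists_generator
  have hmap := map_mk_commutator N
  obtain ⟨c, hcD, hcc⟩ : ∃ c ∈ commutator G, (c : G ⧸ N) = c' := by
    rw [← hmap] at hc'
    exact hc'
  have hdecomp : ∀ x ∈ commutator G, ∃ (k : ℤ) (n : G), n ∈ N ∧ x = c ^ k * n := by
    intro x hx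
    have hx' : (x : G ⧸ N) ∈ commutator (G ⧸ N) := by
      rw [← hmap]; exact ⟨x, hx, rfl⟩
    obtain ⟨k, hk⟩ := Subgroup.mem_zpowers_iff.mp (hgen ⟨_, hx'⟩)
    have hk' : c' ^ k = (x : G ⧸ N) := by simpa using congrArg Subtype.val hk
    refine ⟨k, (c ^ k)⁻¹ * x, ?_, by group⟩
    rw [← QuotientGroup.eq, QuotientGroup.mk_zpow, hcc, hk']
  intro a ha b hb
  obtain ⟨k, n, hn, rfl⟩ := hdecomp a ha
  obtain ⟨l, n', hn', rfl⟩ := hdecomp b hb
  have h1 : ∀ (z : G), z ∈ commutator G → ∀ m ∈ N, m * z = z * m := fun z hz m hm => by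
    have h2 := hcent hz
    rw [Subgroup.mem_centralizer_iff] at h2
    exact h2 m hm
  have hck : c ^ k ∈ commutator G := Subgroup.zpow_mem _ hcD k
  have hcl : c ^ l ∈ commutator G := Subgroup.zpow_mem _ hcD l
  have e1 : n * c ^ l = c ^ l * n := h1 _ hcl n hn
  have e2 : n' * c ^ k = c ^ k * n' := h1 _ hck n' hn'
  have e3 : n * n' = n' * n := h1 n' (hle hn') n hn
  have e4 : c ^ k * c ^ l = c ^ l * c ^ k := by rw [← zpow_add, ← zpow_add, add_comm]
  calc c ^ k * n * (c ^ l * n') = c ^ k * (n * c ^ l) * n' := by group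
    _ = c ^ k * (c ^ l * n) * n' := by rw [e1]
    _ = (c ^ k * c ^ l) * (n * n') := by group
    _ = (c ^ l * c ^ k) * (n' * n) := by rw [e4, e3]
    _ = c ^ l * (c ^ k * n') * n := by group
    _ = c ^ l * (n' * c ^ k) * n := by rw [e2]
    _ = c ^ l * n' * (c ^ k * n) := by group

end Cfsg.Agent.Lib.Helper66.SqfNil
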