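import Mathlib
import Cfsg.Agent.S4127
import Cfsg.Agent.S4134
import Cfsg.Agent.Lib.Helper66.SqfNilE
import Cfsg.Agent.Lib.Helper65.SqfK2
import Cfsg.Agent.Lib.Helper85.SqfSOLV
import Cfsg.Agent.Lib.Helper43.SqfMCC
import Cfsg.Agent.Lib.Helper73.SqfMCD
import Cfsg.Agent.Lib.Helper64.SqfD
import Cfsg.Agent.Lib.Helper94.SqfMCA
import Cfsg.Agent.Lib.Helper66.SqfNilMCB

set_option autoImplicit false

universe u

namespace Cfsg.Agent.Lib.Helper66.SqfNil

open Cfsg.Agent

/-- `p` the smallest prime divisor, no class size divisible by `p^2`: the p'-elements form a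
subgroup (a normal p-complement). -/
theorem exists_pprime_subgroup (G : Type u) [Group G] [Finite G] (p : ℕ) [hp : Fact p.Prime]
    (hmin : ∀ r : ℕ, r.Prime → r ∣ Nat.card G → p ≤ r)
    (hsq : ∀ y : G, ¬ p ^ 2 ∣ (Subgroup.centralizer ({y} : Set G)).index) :
    ∃ K : Subgroup G, ∀ g : G, g ∈ K ↔ (orderOf g).Coprime p := by
  let N : Subgroup G :=
    { carrier := {z | z ∈ Subgroup.center G ∧ ∃ k : ℕ, z ^ (p ^ k) = 1}
      mul_mem' := by
        rintro z w ⟨hz, k, hk⟩ ⟨hw, l, hl⟩
        refine ⟨Subgroup.mul_mem _ hz hw, k + l, ?_⟩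
        have hcomm : Commute z w := (Subgroup.mem_center_iff.mp hz w).symm
        rw [hcomm.mul_pow, pow_add, pow_mul, hk, one_pow, mul_comm (p ^ k), pow_mul, hl, one_pow,
          mul_one]
      one_mem' := ⟨Subgroup.one_mem _, 0, by simp⟩
      inv_mem' := by
        rintro z ⟨hz, k, hk⟩
        exact ⟨Subgroup.inv_mem _ hz, k, by rw [inv_pow, hk, inv_one]⟩ }
  have hNc : N ≤ Subgroup.center G := fun z hz => hz.1
  have hNn : N.Normal := ⟨fun n hn g => by
    have h1 := Subgroup.mem_center_iff.mp (hNc hn) g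
    have h2 : g * n * g⁻¹ = n := by rw [h1, mul_inv_cancel_right]
    rw [h2]; exact hn⟩
  have hNp : IsPGroup p N := by
    rintro ⟨z, hz, k, hk⟩
    exact ⟨k, Subtype.ext hk⟩
  have hmin' : ∀ r : ℕ, r.Prime → r ∣ Nat.card (G ⧸ N) → p ≤ r := fun r hr hrd =>
    hmin r hr (dvd_trans hrd (Subgroup.card_quotient_dvd_card N))
  have hab' : ∀ Q : Subgroup (G ⧸ N), IsPGroup p Q → ∀ a ∈ Q, ∀ b ∈ Q, a * b = b * a := by
    intro Q' hQ' a ha b hb
    obtain ⟨a, rfl⟩ := QuotientGroup.mk_surjective a
    obtain ⟨b, rfl⟩ := QuotientGroup.mk_surjective b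
    have hQ : IsPGroup p (Q'.comap (QuotientGroup.mk' N)) :=
      hQ'.comap_of_ker_isPGroup _ (by rw [QuotientGroup.ker_mk']; exact hNp)
    have ha' : a ∈ Q'.comap (QuotientGroup.mk' N) := ha
    have hb' : b ∈ Q'.comap (QuotientGroup.mk' N) := hb
    obtain ⟨P, hP⟩ := hQ.exists_le_sylow
    have hc := Cfsg.Agent.Lib.Helper65.SqfK2.sylow_commutator_central p hsq P b⁻¹
      (inv_mem (hP hb')) a⁻¹ (inv_mem (hP ha'))
    rw [inv_inv, inv_inv] at hc
    have hcQ : b⁻¹ * a⁻¹ * b * a ∈ Q'.comap (QuotientGroup.mk' N) :=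
      mul_mem (mul_mem (mul_mem (inv_mem hb') (inv_mem ha')) hb') ha'
    obtain ⟨k, hk⟩ := hQ ⟨_, hcQ⟩
    have hk' : (b⁻¹ * a⁻¹ * b * a) ^ (p ^ k) = 1 := by simpa using congrArg Subtype.val hk
    have hcN : b⁻¹ * a⁻¹ * b * a ∈ N := ⟨hc, k, hk'⟩
    rw [← QuotientGroup.mk_mul, ← QuotientGroup.mk_mul, QuotientGroup.eq]
    have e : (a * b)⁻¹ * (b * a) = b⁻¹ * a⁻¹ * b * a := by group
    rw [e]
    exact hcN
  have hsq' : ∀ y : G ⧸ N, (orderOf y).Coprime p →
      ¬ p ^ 2 ∣ (Subgroup.centralizer ({y} : Set (G ⧸ N))).index := by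
    intro y hy
    obtain ⟨x, rfl, hx⟩ := exists_lift_coprime p N y hy
    intro hdvd
    exact hsq x (dvd_trans hdvd (index_centralizer_quotient_dvd N x))
  obtain ⟨K', hK'⟩ := pprime_of_abelian (G ⧸ N) p hmin' hab' hsq'
  exact lift_pprime p N hNc K' hK'

/-- squarefree class sizes imply solvability -/
theorem solvable_of_squarefree (G : Type u) [Group G] [Finite G]
    (hsq : ∀ x : G, Squarefree (Subgroup.centralizer ({x} : Set G)).index) :
    Group.IsSolvable G :=
  Cfsg.Agent.Lib.Helper85.SqfSOLV.solvable_of_sqf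
    (fun H _ _ p _ hmin h => exists_pprime_subgroup H p hmin h) hsq

theorem squarefree_quotient {G : Type u} [Group G] [Finite G]
    (hsq : ∀ x : G, Squarefree (Subgroup.centralizer ({x} : Set G)).index)
    (N : Subgroup G) [N.Normal] (x : G ⧸ N) :
    Squarefree (Subgroup.centralizer ({x} : Set (G ⧸ N))).index := by
  obtain ⟨x, rfl⟩ := QuotientGroup.mk_surjective x
  exact Squarefree.squarefree_of_dvd (index_centralizer_quotient_dvd N x) (hsq x)

/-- squarefree class sizes: the derived subgroup is cyclic of squarefree order -/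
theorem derived_cyclic_aux (n : ℕ) : ∀ (G : Type u) [Group G] [Finite G], Nat.card G = n →
    (∀ x : G, Squarefree (Subgroup.centralizer ({x} : Set G)).index) →
    IsCyclic (commutator G) ∧ Squarefree (Nat.card (commutator G)) := by
  induction n using Nat.strong_induction_on with
  | _ n ih =>
  intro G _ _ hn hsq
  by_cases htriv : Subsingleton G
  · have h1 : Nat.card (commutator G) = 1 := Nat.card_unique
    exact ⟨isCyclic_of_subsingleton, by rw [h1]; exact squarefree_one⟩
  · rw [not_subsingleton_iff_nontrivial] at htriv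
    have hsolv : Group.IsSolvable G := solvable_of_squarefree G hsq
    obtain ⟨N, hNn, hNp⟩ := Cfsg.Agent.Lib.Helper94.SqfMCA.exists_normal_prime (G := G) (fun N hN hne hab hmin =>
      Cfsg.Agent.Lib.Helper64.SqfD.min_normal_prime hsq N hne hab hmin)
    have hN1 : 1 < Nat.card N := hNp.one_lt
    have hcardG : Nat.card G = Nat.card (G ⧸ N) * Nat.card N :=
      Subgroup.card_eq_card_quotient_mul_card_subgroup N
    have hlt : Nat.card (G ⧸ N) < n := by
      have hpos : 0 < Nat.card (G ⧸ N) := Nat.card_pos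
      rw [← hn, hcardG]
      nlinarith
    obtain ⟨hc, hs⟩ := ih _ hlt (G ⧸ N) rfl (squarefree_quotient hsq N)
    by_cases hdisj : N ⊓ commutator G = ⊥
    · exact derived_of_quotient_disjoint N hdisj hc hs
    · have hle : N ≤ commutator G := by
        have h1 : Nat.card (N ⊓ commutator G : Subgroup G) ∣ Nat.card N :=
          Subgroup.card_dvd_of_le inf_le_left
        have h2 : Nat.card (N ⊓ commutator G : Subgroup G) ≠ 1 := fun h =>
          hdisj (Subgroup.card_eq_one.mp h)
        have h3 : Nat.card (N ⊓ commutator G : Subgroup G) = Nat.card N :=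
          ((Nat.dvd_prime hNp).mp h1).resolve_left h2
        have h4 : N ⊓ commutator G = N :=
          Subgroup.eq_of_le_of_card_ge inf_le_left (le_of_eq h3.symm)
        exact h4 ▸ inf_le_right
      have hab := derived_abelian_of_quotient N hNp hle hc
      have hcard := card_derived_quotient N
      rw [inf_eq_left.mpr hle] at hcard
      have hq : Fact (Nat.card N).Prime := ⟨hNp⟩
      have hsqf : Squarefree (Nat.card (commutator G)) := by
        by_cases hqd : Nat.card N ∣ Nat.card (commutator (G ⧸ N))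
        · exfalso
          obtain ⟨T, hTn, hTle, hTco, hTq⟩ :=
            Cfsg.Agent.Lib.Helper73.SqfMCD.exists_qprime_part (Nat.card N) hab
          have hdq := Cfsg.Agent.Lib.Helper43.SqfMCC.derived_qgroup_card (Nat.card N)
            (squarefree_quotient hsq T) hTq
          have hcardT := card_derived_quotient T
          rw [inf_eq_left.mpr hTle] at hcardT
          have hq2 : Nat.card N * Nat.card N ∣ Nat.card (commutator G) := by
            rw [hcard]
            exact Nat.mul_dvd_mul_left _ hqd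
          rw [hcardT] at hq2
          have hco : (Nat.card N * Nat.card N).Coprime (Nat.card T) :=
            Nat.Coprime.mul_left hTco.symm hTco.symm
          have h5 : Nat.card N * Nat.card N ∣ Nat.card (commutator (G ⧸ T)) :=
            hco.dvd_of_dvd_mul_left hq2
          have h6 : Nat.card N * Nat.card N ∣ Nat.card N := dvd_trans h5 hdq
          have h7 := Nat.le_of_dvd hNp.pos h6
          nlinarith
        · rw [hcard, Nat.squarefree_mul_iff]
          exact ⟨(Nat.Prime.coprime_iff_not_dvd hNp).mpr hqd, hNp.prime.squarefree, hs⟩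
      refine ⟨?_, hsqf⟩
      exact Cfsg.Agent.Lib.Helper73.SqfMCD.isCyclic_of_comm_squarefree
        (fun a b => Subtype.ext (hab a a.2 b b.2)) hsqf

/-- squarefree class sizes: the derived subgroup is cyclic of squarefree order -/
theorem derived_cyclic (G : Type u) [Group G] [Finite G]
    (hsq : ∀ x : G, Squarefree (Subgroup.centralizer ({x} : Set G)).index) :
    IsCyclic (commutator G) ∧ Squarefree (Nat.card (commutator G)) :=
  derived_cyclic_aux _ G rfl hsq

end Cfsg.Agent.Lib.Helper66.SqfNil
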